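import Cfsg.Agent.H738.SK.Transport
import Cfsg.Agent.R01.Lifts

/-!
# S3010 (Sidki pairs), the row of the Baby Monster: abstract part (helper74)

`q : B → X` onto with kernel `{1, τ}`.

* `exists_plus` : an elementary abelian 2-subgroup of `X` of order at least 8 contains the image of an involution of `B`;
* `Ker φ` : `φ : C(x) → Y` onto with kernel `⟨x⟩`, `x` of odd order;
* `O2_eq_bot` : `O_2(C_X(s) ∩ C_X(x)) = 1`.
-/

set_option autoImplicit false

open Subgroup Cfsg

namespace Cfsg.Agent.H74.SK.BAbs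

open Cfsg.Agent.H282.SK Cfsg.Agent.R01.Lifts

/-! ### Involutions of type + -/

section plus

variable {B X : Type*} [Group B] [Group X] {q : B →* X} {τ : B}

theorem exists_not_mem {X : Type*} [Group X] [Finite X] {V : Subgroup X} {n : ℕ} (h8 : n < Nat.card V) (S : Finset X)
    (hS : S.card ≤ n) : ∃ v ∈ V, v ∉ S := by
  by_contra hcon
  push Not at hcon
  have h1 : (V : Set X).ncard ≤ (S : Set X).ncard := Set.ncard_le_ncard (fun v hv => hcon v hv) (Finset.finite_toSet S)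
  rw [Set.ncard_coe_finset] at h1
  have h2 : (V : Set X).ncard = Nat.card V := rfl
  omega

/-- **Involutions of type +.** -/
theorem exists_plus [Finite X] (hq : Ext q τ) {V : Subgroup X} (hV : IsElementaryAbelian 2 V) (h8 : 8 ≤ Nat.card V) :
    ∃ b : B, b * b = 1 ∧ q b ∈ V ∧ q b ≠ 1 := by
  classical
  by_contra hcon
  push Not at hcon
  have hsq : ∀ b : B, q b ∈ V → q b ≠ 1 → b * b = τ := by
    intro b hb hb1
    have h1 : q (b * b) = 1 := by
      rw [map_mul, ← pow_two]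
      exact hV.2 _ hb
    rcases (hq.ker _).1 h1 with h2 | h2
    · exact absurd (hcon b h2 hb) hb1
    · exact h2
  have hcomm : ∀ a b : X, a ∈ V → b ∈ V → a * b = b * a := fun a b ha hb => H273.Sidki.elemAb_comm hV ha hb
  have anti : ∀ a b : B, q a ∈ V → q b ∈ V → q a ≠ 1 → q b ≠ 1 → q a ≠ q b → a * b = b * a * τ := by
    intro a b ha hb ha1 hb1 hab
    have hc : Commute (q a) (q b) := hcomm _ _ ha hb
    rcases hq.conj_of_commute hc with h | h
    · exfalso
      have h1 : a * b = b * a := mul_inv_eq_iff_eq_mul.1 h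
      have h2 : (a * b) * (a * b) = 1 := by
        calc (a * b) * (a * b) = a * (b * a) * b := by group
          _ = (a * a) * (b * b) := by rw [← h1]; group
          _ = 1 := by rw [hsq a ha ha1, hsq b hb hb1, hq.zz]
      have h3 := hcon (a * b) h2 (by rw [map_mul]; exact V.mul_mem ha hb)
      apply hab
      rw [map_mul] at h3
      have h4 : q b * q b = 1 := by rw [← pow_two]; exact hV.2 _ hb
      calc q a = q a * (q b * q b) := by rw [h4, mul_one]
        _ = (q a * q b) * q b := by group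
        _ = q b := by rw [h3, one_mul]
    · have h1 : a * b = b * τ * a := mul_inv_eq_iff_eq_mul.1 h
      rw [h1, mul_assoc, ← hq.comm, ← mul_assoc]
  obtain ⟨u, hu, hu'⟩ := exists_not_mem (V := V) (n := 1) (by omega) {1} (by simp)
  obtain ⟨v, hv, hv'⟩ := exists_not_mem (V := V) (n := 2) (by omega) {1, u} (Finset.card_insert_le _ _)
  obtain ⟨w, hw, hw'⟩ := exists_not_mem (V := V) (n := 4) (by omega) {1, u, v, u * v} (by
    refine (Finset.card_insert_le _ _).trans ?_
    refine Nat.succ_le_succ ((Finset.card_insert_le _ _).trans ?_)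
    exact Nat.succ_le_succ (Finset.card_insert_le _ _))
  simp only [Finset.mem_singleton, Finset.mem_insert, not_or] at hu' hv' hw'
  obtain ⟨a, rfl⟩ := hq.surj u
  obtain ⟨b, rfl⟩ := hq.surj v
  obtain ⟨c, rfl⟩ := hq.surj w
  have huv1 : q (a * b) ≠ 1 := by
    intro h
    apply hv'.2
    rw [map_mul] at h
    have h4 : q a * q a = 1 := by rw [← pow_two]; exact hV.2 _ hu
    calc q b = (q a * q a) * q b := by rw [h4, one_mul]
      _ = q a * (q a * q b) := by group
      _ = q a := by rw [h, mul_one]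
  have huvV : q (a * b) ∈ V := by rw [map_mul]; exact V.mul_mem hu hv
  have e1 := anti b c hv hw hv'.1 hw'.1 (fun h => hw'.2.2.1 h.symm)
  have e2 := anti a c hu hw hu' hw'.1 (fun h => hw'.2.1 h.symm)
  have e3 := anti (a * b) c huvV hw huv1 hw'.1 (fun h => hw'.2.2.2 (by rw [← h, map_mul]))
  apply hq.zne
  have e4 : a * b * c = c * (a * b) := by
    calc a * b * c = a * (b * c) := by group
      _ = (a * c) * b * τ := by rw [e1]; group
      _ = c * a * (τ * (b * τ)) := by rw [e2]; group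
      _ = c * a * ((b * τ) * τ) := by rw [hq.comm (b * τ)]
      _ = c * (a * b) * (τ * τ) := by group
      _ = c * (a * b) := by rw [hq.zz, mul_one]
  rw [e4] at e3
  exact (mul_eq_left.1 e3.symm)

end plus

/-! ### The centralizer of an element of odd order -/

section cent

variable {G Y : Type*} [Group G] [Group Y] {x : G}

/-- `φ` is onto with kernel `⟨x⟩`, `x` of odd order. -/
structure Ker (φ : centralizer ({x} : Set G) →* Y) : Prop where
  odd : Odd (orderOf x)
  surj : Function.Surjective φ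
  ker : ∀ k : centralizer ({x} : Set G), φ k = 1 ↔ (k : G) ∈ zpowers x

theorem eq_one_of_pow {H : Type*} [Group H] {k : H} {n m : ℕ} (hn : Odd n) (h : k ^ n = 1) (h2 : k ^ 2 ^ m = 1) : k = 1 := by
  have h1 : orderOf k ∣ n := orderOf_dvd_of_pow_eq_one h
  have h3 : orderOf k ∣ 2 ^ m := orderOf_dvd_of_pow_eq_one h2
  have h4 : Nat.Coprime n (2 ^ m) := Nat.Coprime.pow_right m (Nat.coprime_two_right.2 hn)
  have h5 : orderOf k ∣ 1 := h4 ▸ Nat.dvd_gcd h1 h3
  exact orderOf_eq_one_iff.1 (Nat.dvd_one.1 h5)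

theorem pow_of_mem {k : G} (hk : k ∈ zpowers x) : k ^ orderOf x = 1 := by
  obtain ⟨i, rfl⟩ := mem_zpowers_iff.1 hk
  rw [← zpow_natCast, ← zpow_mul, mul_comm, zpow_mul, zpow_natCast, pow_orderOf_eq_one, one_zpow]

theorem comm_conj {s d : G} (hinv : s * x * s⁻¹ = x⁻¹) (hd : d * x = x * d) : (s * d * s⁻¹) * x = x * (s * d * s⁻¹) := by
  have h1 : x = s * x⁻¹ * s⁻¹ := by
    calc x = (x⁻¹)⁻¹ := (inv_inv x).symm
      _ = (s * x * s⁻¹)⁻¹ := by rw [hinv]
      _ = s * x⁻¹ * s⁻¹ := by group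
  have h2 : d * x⁻¹ = x⁻¹ * d := ((show Commute d x from hd).inv_right).eq
  calc (s * d * s⁻¹) * x = (s * d * s⁻¹) * (s * x⁻¹ * s⁻¹) := by rw [← h1]
    _ = s * (d * x⁻¹) * s⁻¹ := by group
    _ = s * (x⁻¹ * d) * s⁻¹ := by rw [h2]
    _ = (s * x⁻¹ * s⁻¹) * (s * d * s⁻¹) := by group
    _ = x * (s * d * s⁻¹) := by rw [← h1]

/-- the conjugate `s d s⁻¹` in `C(x)` -/
def cs {s : G} (hinv : s * x * s⁻¹ = x⁻¹) (d : centralizer ({x} : Set G)) : centralizer ({x} : Set G) :=
  ⟨s * d * s⁻¹, mem_centralizer_singleton_iff.2 (comm_conj hinv (mem_centralizer_singleton_iff.1 d.2))⟩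

theorem cs_mul {s : G} (hinv : s * x * s⁻¹ = x⁻¹) (d e : centralizer ({x} : Set G)) :
    cs hinv (d * e) = cs hinv d * cs hinv e := by
  apply Subtype.ext
  show s * ((d : G) * e) * s⁻¹ = s * d * s⁻¹ * (s * e * s⁻¹)
  group

theorem inv_pow_eq {s : G} (hinv : s * x * s⁻¹ = x⁻¹) (i : ℤ) : s * x ^ i * s⁻¹ = x ^ (-i) := by
  rw [← conj_zpow, hinv, inv_zpow, zpow_neg]

namespace Ker

variable {φ : centralizer ({x} : Set G) →* Y} (K : Ker φ)
include K

omit K in
theorem comm_x (d : centralizer ({x} : Set G)) : Commute (d : G) x := mem_centralizer_singleton_iff.1 d.2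

/-- an element of the kernel of order 1 or 2 -/
theorem eq_one {k : G} (hk : k ∈ zpowers x) {m : ℕ} (h : k ^ 2 ^ m = 1) : k = 1 :=
  eq_one_of_pow K.odd (pow_of_mem hk) h

theorem uniq {t t' : centralizer ({x} : Set G)} (ht : t * t = 1) (ht' : t' * t' = 1) (h : φ t = φ t') : t = t' := by
  have h1 : φ (t⁻¹ * t') = 1 := by rw [map_mul, map_inv, h, inv_mul_cancel]
  have h2 := (K.ker _).1 h1
  obtain ⟨i, hi⟩ := mem_zpowers_iff.1 h2
  have hi' : x ^ i = (t : G)⁻¹ * t' := hi
  have h3 : (t' : G) = t * x ^ i := by rw [hi']; group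
  have hc : Commute (t : G) (x ^ i) := (comm_x t).zpow_right i
  have h4 : (x ^ i) ^ 2 ^ 1 = 1 := by
    have h5 : (t' : G) * t' = 1 := congrArg Subtype.val ht'
    have h6 : (t : G) * t = 1 := congrArg Subtype.val ht
    rw [h3] at h5
    calc (x ^ i) ^ 2 ^ 1 = (t : G) * t * (x ^ i * x ^ i) := by rw [h6]; group
      _ = t * (t * x ^ i) * x ^ i := by group
      _ = t * (x ^ i * t) * x ^ i := by rw [hc.eq]
      _ = t * x ^ i * (t * x ^ i) := by group
      _ = 1 := h5
  have h5 : x ^ i = 1 := K.eq_one (zpow_mem (mem_zpowers x) i) h4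
  apply Subtype.ext
  rw [h3, h5, mul_one]

theorem exists_inv {y : Y} (hy : y * y = 1) : ∃ t : centralizer ({x} : Set G), t * t = 1 ∧ φ t = y := by
  obtain ⟨d, rfl⟩ := K.surj y
  obtain ⟨m, hm⟩ := K.odd
  have h1 : φ (d * d) = 1 := by rw [map_mul, hy]
  have h2 := pow_of_mem ((K.ker _).1 h1)
  have h3 : (d * d) ^ orderOf x = 1 := Subtype.ext h2
  refine ⟨d ^ orderOf x, ?_, ?_⟩
  · rw [← (Commute.refl d).mul_pow]
    exact h3
  · rw [map_pow, hm, pow_succ, pow_mul, pow_two, hy, one_pow, one_mul]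

/-- commuting modulo `⟨x⟩` with an involution is commuting -/
theorem commute_of_mod {t g : centralizer ({x} : Set G)} (ht : t * t = 1) (h : Commute (φ g) (φ t)) :
    Commute g t := by
  have h1 : g * t * g⁻¹ = t := by
    refine K.uniq ?_ ht ?_
    · calc g * t * g⁻¹ * (g * t * g⁻¹) = g * (t * t) * g⁻¹ := by group
        _ = 1 := by rw [ht]; group
    · rw [map_mul, map_mul, map_inv, h.eq, mul_inv_cancel_right]
  exact mul_inv_eq_iff_eq_mul.1 h1

/-- **Adjustment.** -/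
theorem adj {s : G} (hs : s * s = 1) (hinv : s * x * s⁻¹ = x⁻¹) {d : centralizer ({x} : Set G)}
    (h : φ (cs hinv d) = φ d) : ∃ d' : centralizer ({x} : Set G), φ d' = φ d ∧ Commute (d' : G) s := by
  have h1 : φ (d⁻¹ * cs hinv d) = 1 := by rw [map_mul, map_inv, h, inv_mul_cancel]
  obtain ⟨i, hi⟩ := mem_zpowers_iff.1 ((K.ker _).1 h1)
  have hi' : x ^ i = (d : G)⁻¹ * (s * d * s⁻¹) := hi
  have h2 : s * (d : G) * s⁻¹ = d * x ^ i := by rw [hi']; group
  obtain ⟨m, hm⟩ := K.odd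
  obtain ⟨j, hj⟩ : ∃ j : ℤ, x ^ i = x ^ (j + j) := by
    refine ⟨i * (m + 1), ?_⟩
    have h1 : i * ((m : ℤ) + 1) + i * (m + 1) = i + i * (orderOf x) := by
      rw [hm]; push_cast; ring
    rw [h1, zpow_add, mul_comm i, zpow_mul, zpow_natCast, pow_orderOf_eq_one, one_zpow, mul_one]
  have hxj : x ^ j ∈ centralizer ({x} : Set G) :=
    mem_centralizer_singleton_iff.2 ((Commute.refl x).zpow_left j).eq
  refine ⟨d * ⟨x ^ j, hxj⟩, ?_, ?_⟩
  · rw [map_mul, (K.ker ⟨x ^ j, hxj⟩).2 (zpow_mem (mem_zpowers x) j), mul_one]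
  · have h3 : s * ((d : G) * x ^ j) * s⁻¹ = d * x ^ j := by
      calc s * ((d : G) * x ^ j) * s⁻¹ = (s * d * s⁻¹) * (s * x ^ j * s⁻¹) := by group
        _ = d * x ^ (j + j) * x ^ (-j) := by rw [h2, inv_pow_eq hinv, hj]
        _ = d * x ^ j := by rw [mul_assoc, ← zpow_add]; congr 2; ring
    exact (mul_inv_eq_iff_eq_mul.1 h3).symm

/-- the centralizer of `s` -/
theorem card_dvd [Finite G] {s : G} (hs : s * s = 1) (hinv : s * x * s⁻¹ = x⁻¹) {y : Y}
    (h : ∀ d : centralizer ({x} : Set G), φ d = y → φ (cs hinv d) = φ d) :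
    orderOf y ∣ Nat.card (centralizer ({s} : Set G)) := by
  obtain ⟨d, hd⟩ := K.surj y
  obtain ⟨d', h1, h2⟩ := K.adj hs hinv (h d hd)
  have h3 : orderOf y ∣ orderOf d' := by
    rw [← hd, ← h1]
    exact orderOf_map_dvd φ d'
  have h4 : orderOf (d' : G) ∣ Nat.card (centralizer ({s} : Set G)) :=
    Subgroup.orderOf_dvd_natCard _ (mem_centralizer_singleton_iff.2 h2.eq)
  rw [Subgroup.orderOf_coe] at h4
  exact h3.trans h4

end Ker

/-! ### The core of `C(s) ∩ C(x)` -/

variable {B X : Type*} [Group B] [Group X] {q : B →* X} {τ : B}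

/-- commuting modulo `⟨τ⟩` with an element of odd order is commuting -/
theorem commute_of_odd (hq : Ext q τ) {b x : B} (hx : Odd (orderOf x)) (h : Commute (q b) (q x)) : Commute b x := by
  rcases hq.conj_of_commute h with h1 | h1
  · exact mul_inv_eq_iff_eq_mul.1 h1
  · exfalso
    have h2 : (b * x * b⁻¹) ^ orderOf x = 1 := by rw [conj_pow, pow_orderOf_eq_one, mul_one, mul_inv_cancel]
    have hc : Commute x τ := hq.comm x
    obtain ⟨m, hm⟩ := hx
    rw [h1, hc.mul_pow, pow_orderOf_eq_one, one_mul, hm, pow_succ, pow_mul, pow_two, hq.zz, one_pow, one_mul] at h2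
    exact hq.zne h2

theorem isPGroup_comap (hq : Ext q τ) {P : Subgroup X} (hP : IsPGroup 2 P) : IsPGroup 2 (P.comap q) := by
  apply hP.comap_of_ker_isPGroup
  rintro ⟨k, hk⟩
  refine ⟨1, Subtype.ext ?_⟩
  show k ^ 2 ^ 1 = 1
  rw [pow_one, pow_two]
  rcases (hq.ker k).1 hk with rfl | rfl
  · rw [one_mul]
  · exact hq.zz

/-- **`O_2(C_X(s) ∩ C_X(x)) = 1`.** -/
theorem O2_eq_bot [Finite X] {φ : centralizer ({x} : Set G) →* Y} (K : Ker φ) (hq : Ext q τ) {θ : B →* G}
    (hθ : Function.Injective θ) (hr : ∀ g : G, g * θ τ = θ τ * g → ∃ b, θ b = g) {s : G} {x' s' : B}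
    (hx' : θ x' = x) (hs' : θ s' = s) (hss : s * s = 1) (hinv : s * x * s⁻¹ = x⁻¹)
    {τx : centralizer ({x} : Set G)} (hτ : (τx : G) = θ τ) (Y₀ : Set Y)
    (hY₀ : ∀ d : centralizer ({x} : Set G), φ d ∈ Y₀ → φ (cs hinv d) = φ d)
    (H : ∀ W : Subgroup Y, IsPGroup 2 W → (∀ w ∈ W, w * φ τx = φ τx * w) →
      (∀ y ∈ Y₀, y * φ τx = φ τx * y → ∀ w ∈ W, y * w * y⁻¹ ∈ W) → ∀ w ∈ W, w = 1 ∨ w = φ τx) :
    O2 (centralizer ({q s'} : Set X) ⊓ centralizer ({q x'} : Set X)) = ⊥ := by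
  have hxo : Odd (orderOf x') := by
    have h := K.odd
    rwa [← hx', orderOf_injective θ hθ] at h
  have hττ : τx * τx = 1 := by
    apply Subtype.ext
    show (τx : G) * τx = 1
    rw [hτ, ← map_mul, hq.zz, map_one]
  set L := centralizer ({q s'} : Set X) ⊓ centralizer ({q x'} : Set X) with hL
  set P := (O2 L).comap q with hP
  have hPp : IsPGroup 2 P := isPGroup_comap hq (isPGroup_O2 L)
  have hPx : ∀ b ∈ P, Commute b x' := by
    intro b hb
    have h1 : q b ∈ L := O2_le L hb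
    exact commute_of_odd hq hxo (mem_centralizer_singleton_iff.1 (mem_inf.1 h1).2)
  have hPc : ∀ b ∈ P, θ b ∈ centralizer ({x} : Set G) := by
    intro b hb
    rw [mem_centralizer_singleton_iff, ← hx', ← map_mul, ← map_mul, (hPx b hb).eq]
  let g : P →* Y := φ.comp ((θ.comp P.subtype).codRestrict _ fun b => hPc b b.2)
  have hg : ∀ (b : B) (hb : b ∈ P), g ⟨b, hb⟩ = φ ⟨θ b, hPc b hb⟩ := fun b hb => rfl
  have hW : ∀ w ∈ g.range, w = 1 ∨ w = φ τx := by
    refine H g.range ?_ ?_ ?_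
    · exact hPp.of_surjective g.rangeRestrict g.rangeRestrict_surjective
    · rintro _ ⟨⟨b, hb⟩, rfl⟩
      rw [hg, ← map_mul, ← map_mul]
      congr 1
      apply Subtype.ext
      show θ b * (τx : G) = τx * θ b
      rw [hτ, ← map_mul, ← map_mul, hq.comm]
    · rintro y hy hyc _ ⟨⟨b, hb⟩, rfl⟩
      obtain ⟨d, rfl⟩ := K.surj y
      obtain ⟨d', h1, h2⟩ := K.adj hss hinv (hY₀ d hy)
      rw [← h1] at hyc ⊢
      have h3 := K.commute_of_mod (g := d') hττ hyc
      have h4 : (d' : G) * θ τ = θ τ * d' := by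
        rw [← hτ]
        exact congrArg Subtype.val h3.eq
      obtain ⟨c, hc⟩ := hr _ h4
      have hcs : Commute c s' := by
        apply hθ
        rw [map_mul, map_mul, hc, hs']
        exact h2.eq
      have hcx : Commute c x' := by
        apply hθ
        rw [map_mul, map_mul, hc, hx']
        exact mem_centralizer_singleton_iff.1 d'.2
      have hcL : q c ∈ L := by
        rw [hL, mem_inf, mem_centralizer_singleton_iff, mem_centralizer_singleton_iff, ← map_mul, ← map_mul,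
          ← map_mul, ← map_mul, hcs.eq, hcx.eq]
        exact ⟨rfl, rfl⟩
      have h5 : c * b * c⁻¹ ∈ P := by
        rw [hP, mem_comap, map_mul, map_mul, map_inv]
        exact conj_mem_O2 hcL hb
      refine ⟨⟨c * b * c⁻¹, h5⟩, ?_⟩
      rw [hg, hg, ← map_mul, ← map_inv, ← map_mul]
      congr 1
      apply Subtype.ext
      show θ (c * b * c⁻¹) = d' * θ b * (d' : G)⁻¹
      rw [map_mul, map_mul, map_inv, hc]
  have hτP : τ ∈ P := by
    rw [hP, mem_comap, hq.mapz]
    exact one_mem _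
  have key : ∀ b ∈ P, ∀ hb : b ∈ P, g ⟨b, hb⟩ = 1 → b = 1 := by
    intro b hb _ h
    rw [hg, K.ker] at h
    obtain ⟨k, hk⟩ := hPp ⟨b, hb⟩
    have h1 : b ^ 2 ^ k = 1 := congrArg Subtype.val hk
    have h2 : θ b = 1 := K.eq_one h (m := k) (by rw [← map_pow, h1, map_one])
    exact hθ (by rw [h2, map_one])
  have hgτ : g ⟨τ, hτP⟩ = φ τx := by
    rw [hg]
    congr 1
    exact Subtype.ext hτ.symm
  rw [eq_bot_iff]
  intro p hp
  rw [mem_bot]
  obtain ⟨b, rfl⟩ := hq.surj p
  have hb : b ∈ P := hp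
  rcases hW (g ⟨b, hb⟩) ⟨_, rfl⟩ with h | h
  · rw [key b hb hb h, map_one]
  · have h1 : b * τ ∈ P := P.mul_mem hb hτP
    have h2 : g ⟨b * τ, h1⟩ = 1 := by
      have h3 : (⟨b * τ, h1⟩ : P) = ⟨b, hb⟩ * ⟨τ, hτP⟩ := rfl
      rw [h3, map_mul, h, hgτ, ← map_mul, hττ, map_one]
    have h4 := key _ h1 h1 h2
    have h5 : q (b * τ) = 1 := by rw [h4, map_one]
    rwa [map_mul, hq.mapz, mul_one] at h5

end cent

end Cfsg.Agent.H74.SK.BAbs
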