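import Cfsg.Agent.H74.SK.BAbs
import Cfsg.Agent.MonsterN.FusionType

/-!
# S3010 (Sidki pairs), the row of the Baby Monster: the argument (helper74)

`B = C_Γ(τ) → X` with kernel `⟨τ⟩`. The classes of involutions of `X` which are images of involutions of `B` are those of
`q f₁`, `q (f₁f₂)`, `q (f₁f₂f₃)`. Every counterexample `V` meets one of the three; all of them are dead.
-/

set_option autoImplicit false

open Subgroup Cfsg

namespace Cfsg.Agent.H74.SK.BCore

open Cfsg.Agent.H282.SK Cfsg.Agent.H738.SK Cfsg.Agent.R01.Lifts Cfsg.Agent.H74.SK.BAbs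
open Cfsg.Agent.MonsterN (FusionType.Facts)

universe u

variable {B Γ : Type*} {X : Type u} [Group B] [Group X] [Group Γ]

/-- The situation. -/
structure Sit (q : B →* X) (θ : B →* Γ) (τ f₁ f₂ f₃ f₄ y₅ : B) (z : Γ) (t₁ : X) : Prop where
  hq : Ext q τ
  inj : Function.Injective θ
  hr : ∀ g : Γ, g * θ τ = θ τ * g → ∃ b, θ b = g
  F : Cfsg.Agent.MonsterN.FusionType.Facts τ f₁ f₂ f₃ f₄
  cz : IsConj z (θ (τ * (f₁ * f₂)))
  cd : IsConj z (θ (f₁ * f₂ * f₃))
  two : ∀ g : Γ, g * g = 1 → g ≠ 1 → IsConj z g ∨ IsConj (θ τ) g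
  six : ∀ k : Γ, orderOf (θ τ * (k * θ τ * k⁻¹)) ≤ 6
  z19 : ¬ 19 ∣ Nat.card (centralizer ({z} : Set Γ))
  hc5 : IsConj f₁ y₅
  ht1 : IsConj (q y₅) t₁
  card5 : Nat.card (centralizer ({q y₅} : Set X)) = 306129918735099415756800
  lift : ∀ k : B, k * y₅ * k⁻¹ = y₅ → q k * q k = 1 → k * k = 1
  ex19 : ∀ y : X, orderOf y = 19 → ∃ j, IsConj t₁ j ∧ Commute y j
  un19 : ∀ y : X, orderOf y = 19 → ∀ j j' : X, IsConj t₁ j → IsConj t₁ j' → Commute y j → Commute y j' → j = j'

theorem card_cent_isConj {G : Type*} [Group G] {g h : G} (hc : IsConj g h) :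
    Nat.card (centralizer ({g} : Set G)) = Nat.card (centralizer ({h} : Set G)) := by
  obtain ⟨k, rfl⟩ := isConj_iff.1 hc
  refine Nat.card_congr ⟨fun c => ⟨k * c * k⁻¹, ?_⟩, fun c => ⟨k⁻¹ * c * k, ?_⟩, fun c => ?_, fun c => ?_⟩
  · have h1 := mem_centralizer_singleton_iff.1 c.2
    rw [mem_centralizer_singleton_iff]
    calc k * c * k⁻¹ * (k * g * k⁻¹) = k * (c * g) * k⁻¹ := by group
      _ = k * (g * c) * k⁻¹ := by rw [h1]
      _ = _ := by group
  · have h1 := mem_centralizer_singleton_iff.1 c.2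
    rw [mem_centralizer_singleton_iff]
    calc k⁻¹ * c * k * g = k⁻¹ * (c * (k * g * k⁻¹)) * k := by group
      _ = k⁻¹ * (k * g * k⁻¹ * c) * k := by rw [h1]
      _ = _ := by group
  · apply Subtype.ext
    show k⁻¹ * (k * c * k⁻¹) * k = c
    group
  · apply Subtype.ext
    show k * (k⁻¹ * c * k) * k⁻¹ = c
    group

/-- An element of odd order greater than 6 is not inverted by a conjugate of `t`. -/
theorem not_conj_six {G : Type*} [Group G] {t u g : G} (six : ∀ k : G, orderOf (t * (k * t * k⁻¹)) ≤ 6)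
    (hodd : Odd (orderOf g)) (h6 : 6 < orderOf g) (hu : u * u = 1) (hinv : u * g * u⁻¹ = g⁻¹) :
    ¬ IsConj t u := by
  rw [isConj_iff]
  rintro ⟨h, rfl⟩
  set s := h * t * h⁻¹ with hs
  obtain ⟨m, hm⟩ := hodd
  have hk : g ^ (m + 1) * g ^ (m + 1) = g := by
    rw [← pow_add, show m + 1 + (m + 1) = (2 * m + 1) + 1 by ring, pow_succ, ← hm, pow_orderOf_eq_one, one_mul]
  have hsk : s * g ^ (m + 1) * s⁻¹ = (g ^ (m + 1))⁻¹ := by
    rw [← conj_pow, hinv, inv_pow]
  set k := g ^ (m + 1) with hkd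
  have h1 : s * (k * s * k⁻¹) = g⁻¹ := by
    calc s * (k * s * k⁻¹) = (s * k * s⁻¹) * (s * s) * k⁻¹ := by group
      _ = k⁻¹ * k⁻¹ := by rw [hsk, hu, mul_one]
      _ = g⁻¹ := by rw [← mul_inv_rev, hk]
  have h2 := six (h⁻¹ * k * h)
  have h3 : h * (t * (h⁻¹ * k * h * t * (h⁻¹ * k * h)⁻¹)) * h⁻¹ = g⁻¹ := by
    rw [← h1, hs]; group
  have h4 : orderOf g = orderOf (t * (h⁻¹ * k * h * t * (h⁻¹ * k * h)⁻¹)) := by
    rw [← orderOf_inv, ← h3]
    exact (MulAut.conj h).orderOf_eq _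
  omega

namespace Sit

variable {q : B →* X} {θ : B →* Γ} {τ f₁ f₂ f₃ f₄ y₅ : B} {z : Γ} {t₁ : X}
  (S : Sit q θ τ f₁ f₂ f₃ f₄ y₅ z t₁)
include S

theorem sq5 : y₅ * y₅ = 1 := by
  obtain ⟨k, rfl⟩ := isConj_iff.1 S.hc5
  calc k * f₁ * k⁻¹ * (k * f₁ * k⁻¹) = k * (f₁ * f₁) * k⁻¹ := by group
    _ = 1 := by rw [S.F.sq₁]; group

theorem conj_mul_τ {a b : B} (h : IsConj a b) : IsConj (τ * a) (τ * b) := by
  obtain ⟨k, rfl⟩ := isConj_iff.1 h
  refine isConj_iff.2 ⟨k, ?_⟩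
  calc k * (τ * a) * k⁻¹ = (k * τ) * a * k⁻¹ := by group
    _ = (τ * k) * a * k⁻¹ := by rw [S.hq.comm]
    _ = _ := by group

theorem ττ (a : B) : τ * (τ * a) = a := by rw [← mul_assoc, S.hq.zz, one_mul]

theorem q_τ (a : B) : q (τ * a) = q a := by rw [map_mul, S.hq.mapz, one_mul]

/-- **(C2)** the centralizer of an involution not conjugate to `z` -/
theorem exists_chart {t : Γ} (ht : t * t = 1) (ht1 : t ≠ 1) (htz : ¬ IsConj z t) :
    ∃ θ' : B →* Γ, Function.Injective θ' ∧ θ' τ = t ∧ (∀ g : Γ, g * t = t * g → ∃ b, θ' b = g) ∧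
      ∀ b, IsConj (θ b) (θ' b) := by
  rcases S.two t ht ht1 with h | h
  · exact absurd h htz
  · obtain ⟨g, rfl⟩ := isConj_iff.1 h
    refine ⟨(MulAut.conj g).toMonoidHom.comp θ, (MulAut.conj g).injective.comp S.inj, rfl, ?_, ?_⟩
    · intro c hc
      obtain ⟨b, hb⟩ := S.hr (g⁻¹ * c * g) (by
        calc g⁻¹ * c * g * θ τ = g⁻¹ * (c * (g * θ τ * g⁻¹)) * g := by group
          _ = g⁻¹ * (g * θ τ * g⁻¹ * c) * g := by rw [hc]
          _ = _ := by group)
      refine ⟨b, ?_⟩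
      show g * θ b * g⁻¹ = c
      rw [hb]; group
    · intro b
      exact isConj_iff.2 ⟨g, rfl⟩

/-- the classes -/
theorem classes {b : B} (hb : b * b = 1) (h1 : q b ≠ 1) :
    IsConj f₁ b ∨ IsConj (f₁ * f₂) b ∨ IsConj (τ * (f₁ * f₂)) b ∨ IsConj (f₁ * f₂ * f₃) b :=
  S.F.classes b hb (fun h => h1 (by rw [h, map_one])) (fun h => h1 (by rw [h, S.hq.mapz]))

/-- involutions of type `+` commuting with an element of order 19 -/
theorem P19_plus {y : X} (hy : orderOf y = 19) {b : B} (hb : b * b = 1) (h1 : q b ≠ 1) (hc : Commute (q b) y)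
    [Finite Γ] : IsConj (q f₁) (q b) := by
  obtain ⟨η, hη, hη'⟩ : ∃ η : B, q η = y ∧ η ^ 19 = 1 := by
    obtain ⟨η, rfl⟩ := S.hq.surj y
    have h2 : q (η ^ 19) = 1 := by rw [map_pow, ← hy, pow_orderOf_eq_one]
    rcases (S.hq.ker _).1 h2 with h3 | h3
    · exact ⟨η, rfl, h3⟩
    · refine ⟨τ * η, S.q_τ η, ?_⟩
      have hcm : Commute τ η := (S.hq.comm η).symm
      rw [hcm.mul_pow, h3, pow_succ, pow_mul τ 2 9, pow_two, S.hq.zz, one_pow, one_mul]
      exact S.hq.zz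
  have hηo : orderOf η = 19 := by
    have h3 : orderOf η ∣ 19 := orderOf_dvd_of_pow_eq_one hη'
    rcases (Nat.dvd_prime (by norm_num)).1 h3 with h4 | h4
    · exfalso
      rw [orderOf_eq_one_iff] at h4
      rw [h4, map_one] at hη
      rw [← hη, orderOf_one] at hy
      omega
    · exact h4
  have hcm : Commute b η := by
    apply commute_of_odd S.hq (by rw [hηo]; decide)
    rw [hη]; exact hc
  have key : ∀ c : B, Commute c η → ¬ IsConj z (θ c) := by
    intro c hc hz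
    apply S.z19
    rw [card_cent_isConj hz]
    have h3 : orderOf (θ η) = 19 := by rw [orderOf_injective θ S.inj, hηo]
    rw [← h3]
    apply Subgroup.orderOf_dvd_natCard
    rw [mem_centralizer_singleton_iff, ← map_mul, ← map_mul, hc.eq]
  have hτη : Commute (τ * b) η := Commute.mul_left (S.hq.comm η).symm hcm
  rcases S.classes hb h1 with h | h | h | h
  · exact q.map_isConj h
  · exfalso
    exact key _ hτη (S.cz.trans (θ.map_isConj (S.conj_mul_τ h)))
  · exfalso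
    exact key _ hcm (S.cz.trans (θ.map_isConj h))
  · exfalso
    exact key _ hcm (S.cd.trans (θ.map_isConj h))

/-- **(P19)** the involutions commuting with an element of order 19 are conjugate to `q f₁` -/
theorem P19 [Finite Γ] {y u : X} (hy : orderOf y = 19) (hu : u * u = 1) (hu1 : u ≠ 1) (hc : Commute u y) :
    IsConj (q f₁) u := by
  obtain ⟨b, rfl⟩ := S.hq.surj u
  have h1 : q (b * b) = 1 := by rw [map_mul, hu]
  rcases (S.hq.ker _).1 h1 with hb | hb
  · exact S.P19_plus hy hb hu1 hc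
  · exfalso
    obtain ⟨j, hj, hyj⟩ := S.ex19 y hy
    have hbj : Commute (q b) j := by
      have h2 : q b * j * (q b)⁻¹ = j := by
        refine S.un19 y hy _ _ (hj.trans (isConj_iff.2 ⟨_, rfl⟩)) hj ?_ hyj
        have h3 : Commute y (q b) := hc.symm
        exact (h3.mul_right hyj).mul_right h3.inv_right
      exact mul_inv_eq_iff_eq_mul.1 h2
    obtain ⟨k, hk⟩ := isConj_iff.1 (S.ht1.trans hj)
    obtain ⟨K, rfl⟩ := S.hq.surj k
    have hyy : Commute (q (K⁻¹ * b * K)) (q y₅) := by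
      have h2 : q y₅ = (q K)⁻¹ * j * q K := by rw [← hk]; group
      rw [h2, map_mul, map_mul, map_inv]
      show (q K)⁻¹ * q b * q K * ((q K)⁻¹ * j * q K) = (q K)⁻¹ * j * q K * ((q K)⁻¹ * q b * q K)
      calc (q K)⁻¹ * q b * q K * ((q K)⁻¹ * j * q K) = (q K)⁻¹ * (q b * j) * q K := by group
        _ = (q K)⁻¹ * (j * q b) * q K := by rw [hbj.eq]
        _ = _ := by group
    set b' := K⁻¹ * b * K with hb'
    have hb2 : b' * b' = τ := by
      calc b' * b' = K⁻¹ * (b * b) * K := by rw [hb']; group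
        _ = K⁻¹ * (τ * K) := by rw [hb]; group
        _ = τ := by rw [← S.hq.comm]; group
    have hne : ¬ b' * y₅ * b'⁻¹ = y₅ := by
      intro h2
      have h3 := S.lift b' h2 (by rw [← map_mul, hb2, S.hq.mapz])
      rw [hb2] at h3
      exact S.hq.zne h3
    have h5 : b' * y₅ * b'⁻¹ = y₅ * τ := (S.hq.conj_of_commute hyy).resolve_left hne
    have h6 : b' * y₅ * (b' * y₅) = 1 := by
      calc b' * y₅ * (b' * y₅) = (b' * y₅ * b'⁻¹) * (b' * b') * y₅ := by group
        _ = y₅ * (τ * τ) * y₅ := by rw [h5, hb2]; group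
        _ = 1 := by rw [S.hq.zz, mul_one, S.sq5]
    have hb1 : ¬ (b' = 1 ∨ b' = τ) := by
      rintro (h | h)
      · apply hne
        rw [h]; group
      · apply hne
        rw [h, ← S.hq.comm]; group
    have h7 : q (b' * y₅) ≠ 1 := by
      intro h
      apply hne
      rcases (S.hq.ker _).1 h with h8 | h8
      · have h9 : b' = y₅⁻¹ := mul_eq_one_iff_eq_inv.1 h8
        rw [h9]; group
      · have h9 : b' = τ * y₅⁻¹ := eq_mul_inv_of_mul_eq h8
        rw [h9]
        calc τ * y₅⁻¹ * y₅ * (τ * y₅⁻¹)⁻¹ = τ * (y₅ * τ⁻¹) := by group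
          _ = (τ * y₅) * τ⁻¹ := by group
          _ = (y₅ * τ) * τ⁻¹ := by rw [S.hq.comm]
          _ = y₅ := by group
    set y' := (q K)⁻¹ * y * q K with hy'
    have hyo : orderOf y' = 19 := by
      have h8 : y' = MulAut.conj (q K)⁻¹ y := by rw [hy', MulAut.conj_apply, inv_inv]
      rw [h8, MulEquiv.orderOf_eq, hy]
    have hc1 : Commute (q b') y' := by
      rw [hb', hy', map_mul, map_mul, map_inv]
      show (q K)⁻¹ * q b * q K * ((q K)⁻¹ * y * q K) = (q K)⁻¹ * y * q K * ((q K)⁻¹ * q b * q K)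
      calc (q K)⁻¹ * q b * q K * ((q K)⁻¹ * y * q K) = (q K)⁻¹ * (q b * y) * q K := by group
        _ = (q K)⁻¹ * (y * q b) * q K := by rw [hc.eq]
        _ = _ := by group
    have hc2 : Commute (q y₅) y' := by
      have h2 : q y₅ = (q K)⁻¹ * j * q K := by rw [← hk]; group
      rw [h2, hy']
      show (q K)⁻¹ * j * q K * ((q K)⁻¹ * y * q K) = (q K)⁻¹ * y * q K * ((q K)⁻¹ * j * q K)
      calc (q K)⁻¹ * j * q K * ((q K)⁻¹ * y * q K) = (q K)⁻¹ * (j * y) * q K := by group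
        _ = (q K)⁻¹ * (y * j) * q K := by rw [hyj.eq]
        _ = _ := by group
    have hc3 : Commute (q (b' * y₅)) y' := by
      rw [map_mul]
      exact hc1.mul_left hc2
    have h8 := S.P19_plus hyo h6 h7 hc3
    have h9 : IsConj t₁ (q (b' * y₅)) := S.ht1.symm.trans ((q.map_isConj S.hc5).symm.trans h8)
    have h10 := S.un19 y' hyo _ _ h9 S.ht1.symm hc3.symm hc2.symm
    have h11 : q b' = 1 := by
      rw [map_mul] at h10
      exact mul_eq_right.1 h10
    exact hb1 ((S.hq.ker _).1 h11)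


/-- `q s'` is dead -/
theorem dead_of_ker [Finite X] {Y : Type*} [Group Y] {x s : Γ} {φ : centralizer ({x} : Set Γ) →* Y} (K : Ker φ)
    (hss : s * s = 1) (hs1 : s ≠ 1) (hinv : s * x * s⁻¹ = x⁻¹) {tx : centralizer ({x} : Set Γ)}
    (hst : s * (tx : Γ) = tx * s) (hstn : s ≠ tx)
    {θ' : B →* Γ} (hi : Function.Injective θ') (hτ : θ' τ = tx) (hr' : ∀ g : Γ, g * tx = tx * g → ∃ b, θ' b = g)
    (Y₀ : Set Y) (hY₀ : ∀ d : centralizer ({x} : Set Γ), φ d ∈ Y₀ → φ (cs hinv d) = φ d)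
    (H : ∀ W : Subgroup Y, IsPGroup 2 W → (∀ w ∈ W, w * φ tx = φ tx * w) →
      (∀ y ∈ Y₀, y * φ tx = φ tx * y → ∀ w ∈ W, y * w * y⁻¹ ∈ W) → ∀ w ∈ W, w = 1 ∨ w = φ tx) :
    ∃ s' : B, θ' s' = s ∧ s' * s' = 1 ∧ q s' ≠ 1 ∧ Dead (⊤ : Subgroup X) (q s') := by
  obtain ⟨s', hs'⟩ := hr' s hst
  obtain ⟨x', hx'⟩ := hr' x (mem_centralizer_singleton_iff.1 tx.2).symm
  have h1 : s' * s' = 1 := hi (by rw [map_mul, hs', hss, map_one])
  have h2 : q s' ≠ 1 := by
    intro h
    rcases (S.hq.ker _).1 h with h3 | h3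
    · exact hs1 (by rw [← hs', h3, map_one])
    · exact hstn (by rw [← hs', h3, hτ])
  refine ⟨s', hs', h1, h2, ?_⟩
  have h3 : s' * x' * s'⁻¹ = x'⁻¹ := hi (by rw [map_mul, map_mul, map_inv, map_inv, hs', hx', hinv])
  have hxo : Odd (orderOf x') := by
    have h := K.odd
    rwa [← hx', orderOf_injective θ' hi] at h
  refine Dead.of_O2 (x := q x') h2 ?_ ?_ ?_
  · exact Odd.of_dvd_nat hxo (orderOf_map_dvd q x')
  · rw [← map_inv, ← map_mul, ← map_mul, h3, map_inv]
  · refine O2_eq_bot K S.hq hi (by rw [hτ]; exact hr') hx' hs' hss hinv (τx := tx) hτ.symm Y₀ hY₀ H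

/-- **(K1)** -/
theorem K1 [Finite X] {Y : Type*} [Group Y] {x s : Γ} {φ : centralizer ({x} : Set Γ) →* Y} (K : Ker φ)
    (hss : s * s = 1) (hs1 : s ≠ 1) (hinv : s * x * s⁻¹ = x⁻¹) {tx : centralizer ({x} : Set Γ)}
    (hst : s * (tx : Γ) = tx * s) (hstn : s ≠ tx) (htt : (tx : Γ) * tx = 1) (ht1 : (tx : Γ) ≠ 1)
    (htz : ¬ IsConj z (tx : Γ)) (hsz : ¬ IsConj z s) (hstz : ¬ IsConj z ((tx : Γ) * s))
    (Y₀ : Set Y) (hY₀ : ∀ d : centralizer ({x} : Set Γ), φ d ∈ Y₀ → φ (cs hinv d) = φ d)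
    (H : ∀ W : Subgroup Y, IsPGroup 2 W → (∀ w ∈ W, w * φ tx = φ tx * w) →
      (∀ y ∈ Y₀, y * φ tx = φ tx * y → ∀ w ∈ W, y * w * y⁻¹ ∈ W) → ∀ w ∈ W, w = 1 ∨ w = φ tx) :
    Dead (⊤ : Subgroup X) (q f₁) ∧ ¬ IsConj z (θ f₁) := by
  obtain ⟨θ', hi, hτ, hr', hc⟩ := S.exists_chart htt ht1 htz
  obtain ⟨s', hs', h1, h2, h3⟩ := S.dead_of_ker K hss hs1 hinv hst hstn hi hτ hr' Y₀ hY₀ H
  have key : ∀ b : B, ¬ IsConj z (θ' b) → ¬ IsConj z (θ b) := fun b hb h => hb (h.trans (hc b))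
  have hsz' : ¬ IsConj z (θ s') := key _ (by rw [hs']; exact hsz)
  have hstz' : ¬ IsConj z (θ (τ * s')) := key _ (by rw [map_mul, hs', hτ]; exact hstz)
  have hcl : IsConj f₁ s' := by
    rcases S.classes h1 h2 with h | h | h | h
    · exact h
    · exact absurd (S.cz.trans (θ.map_isConj (S.conj_mul_τ h))) hstz'
    · exact absurd (S.cz.trans (θ.map_isConj h)) hsz'
    · exact absurd (S.cd.trans (θ.map_isConj h)) hsz'
  exact ⟨h3.of_isConj (q.map_isConj hcl).symm, fun h => hsz' (h.trans (θ.map_isConj hcl))⟩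

/-- **(K5)** -/
theorem K5 [Finite X] [Finite Γ] {Y : Type*} [Group Y] {x s : Γ} {φ : centralizer ({x} : Set Γ) →* Y} (K : Ker φ)
    (hss : s * s = 1) (hs1 : s ≠ 1) (hinv : s * x * s⁻¹ = x⁻¹) {tx : centralizer ({x} : Set Γ)}
    (hst : s * (tx : Γ) = tx * s) (hstn : s ≠ tx) (htt : (tx : Γ) * tx = 1) (ht1 : (tx : Γ) ≠ 1)
    (htz : ¬ IsConj z (tx : Γ)) (hsz : ¬ IsConj z s)
    (hY₀ : ∀ d : centralizer ({x} : Set Γ), φ (cs hinv d) = φ d)
    (H : ∀ W : Subgroup Y, IsPGroup 2 W → (∀ w ∈ W, w * φ tx = φ tx * w) →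
      (∀ y : Y, y * φ tx = φ tx * y → ∀ w ∈ W, y * w * y⁻¹ ∈ W) → ∀ w ∈ W, w = 1 ∨ w = φ tx)
    (P : Subgroup Y) (hP : Nat.card P = 5 ^ 3) (hPc : ∀ y ∈ P, y * φ tx = φ tx * y) :
    Dead (⊤ : Subgroup X) (q (f₁ * f₂)) ∧ ¬ IsConj z (θ (f₁ * f₂)) := by
  obtain ⟨θ', hi, hτ, hr', hc⟩ := S.exists_chart htt ht1 htz
  obtain ⟨s', hs', h1, h2, h3⟩ := S.dead_of_ker K hss hs1 hinv hst hstn hi hτ hr' Set.univ (fun d _ => hY₀ d)
    (fun W hW h1 h2 => H W hW h1 fun y => h2 y trivial)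
  have key : ∀ b : B, ¬ IsConj z (θ' b) → ¬ IsConj z (θ b) := fun b hb h => hb (h.trans (hc b))
  have hsz' : ¬ IsConj z (θ s') := key _ (by rw [hs']; exact hsz)
  have hBfin : Finite B := Finite.of_injective _ S.inj
  -- the order of the centralizer of `q s'`
  have h125 : 5 ^ 3 ∣ Nat.card (centralizer ({q s'} : Set X)) := by
    let L : Subgroup (centralizer ({x} : Set Γ)) := P.comap φ ⊓ (centralizer ({s} : Set Γ)).comap (Subgroup.subtype _)
    have hL : L.map φ = P := by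
      apply le_antisymm
      · rintro _ ⟨d, hd, rfl⟩
        exact (mem_inf.1 hd).1
      · intro y hy
        obtain ⟨d, rfl⟩ := K.surj y
        obtain ⟨d', hd1, hd2⟩ := K.adj hss hinv (hY₀ d)
        refine ⟨d', mem_inf.2 ⟨?_, ?_⟩, hd1⟩
        · rw [mem_comap, hd1]; exact hy
        · exact mem_centralizer_singleton_iff.2 hd2.eq
    have e1 : 5 ^ 3 ∣ Nat.card L := by
      rw [← hP, ← hL]
      exact Subgroup.card_map_dvd _ _
    have hLc : ∀ d ∈ L, (d : Γ) * tx = tx * d := by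
      intro d hd
      have h4 : Commute (φ d) (φ tx) := hPc _ (mem_inf.1 hd).1
      exact congrArg Subtype.val (K.commute_of_mod (Subtype.ext htt) h4).eq
    let L' : Subgroup B := (L.map (Subgroup.subtype _)).comap θ'
    have hL' : L'.map θ' = L.map (Subgroup.subtype _) := by
      apply le_antisymm
      · exact Subgroup.map_comap_le _ _
      · rintro _ ⟨d, hd, rfl⟩
        obtain ⟨b, hb⟩ := hr' d (hLc d hd)
        exact ⟨b, by rw [SetLike.mem_coe, mem_comap, hb]; exact ⟨d, hd, rfl⟩, hb⟩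
    have e2 : Nat.card L' = Nat.card L := by
      rw [← Subgroup.card_map_of_injective hi, hL', Subgroup.card_map_of_injective (Subgroup.subtype_injective _)]
    have e3 : L'.map q ≤ centralizer ({q s'} : Set X) := by
      rintro _ ⟨b, hb, rfl⟩
      obtain ⟨d, hd, hdb⟩ := mem_comap.1 hb
      have h4 : (d : Γ) * s = s * d := mem_centralizer_singleton_iff.1 (mem_inf.1 hd).2
      have h5 : b * s' = s' * b := hi (by
        rw [map_mul, map_mul, hs', ← hdb]; exact h4)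
      rw [mem_centralizer_singleton_iff, ← map_mul, ← map_mul, h5]
    have e4 : Nat.card (L'.map q) * Nat.card (q.comp L'.subtype).ker = Nat.card L' := by
      rw [Subgroup.card_eq_card_quotient_mul_card_subgroup (q.comp L'.subtype).ker]
      congr 1
      have h5 : (q.comp L'.subtype).range = L'.map q := by
        ext w
        constructor
        · rintro ⟨⟨b, hb⟩, rfl⟩
          exact ⟨b, hb, rfl⟩
        · rintro ⟨b, hb, rfl⟩
          exact ⟨⟨b, hb⟩, rfl⟩
      rw [← h5]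
      exact Nat.card_congr (QuotientGroup.quotientKerEquivRange (q.comp L'.subtype)).symm.toEquiv
    have e5 : Nat.card (q.comp L'.subtype).ker ∣ 2 := by
      have h5 : ((q.comp L'.subtype).ker.map L'.subtype) ≤ zpowers τ := by
        rintro _ ⟨⟨b, hb⟩, hk, rfl⟩
        have h6 : q b = 1 := hk
        rcases (S.hq.ker _).1 h6 with h7 | h7
        · show b ∈ zpowers τ
          rw [h7]; exact one_mem _
        · show b ∈ zpowers τ
          rw [h7]; exact mem_zpowers _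
      have h6 := Subgroup.card_dvd_of_le h5
      rw [Subgroup.card_map_of_injective (Subgroup.subtype_injective _), Nat.card_zpowers] at h6
      exact h6.trans (orderOf_dvd_of_pow_eq_one (by rw [pow_two, S.hq.zz]))
    have e6 : 5 ^ 3 ∣ Nat.card (L'.map q) := by
      rw [← e2, ← e4] at e1
      exact Nat.Coprime.dvd_of_dvd_mul_right (Nat.Coprime.coprime_dvd_right e5 (by norm_num)) e1
    exact e6.trans (Subgroup.card_dvd_of_le e3)
  have hcl : IsConj (f₁ * f₂) s' := by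
    rcases S.classes h1 h2 with h | h | h | h
    · exfalso
      have h4 : IsConj (q y₅) (q s') := (q.map_isConj S.hc5).symm.trans (q.map_isConj h)
      rw [← card_cent_isConj h4, S.card5] at h125
      norm_num at h125
    · exact h
    · exact absurd (S.cz.trans (θ.map_isConj h)) hsz'
    · exact absurd (S.cd.trans (θ.map_isConj h)) hsz'
  exact ⟨h3.of_isConj (q.map_isConj hcl).symm, fun h => hsz' (h.trans (θ.map_isConj hcl))⟩

/-- **(K19)** -/
theorem K19 [Finite X] [Finite Γ] (hd1 : Dead (⊤ : Subgroup X) (q f₁)) (hz1 : ¬ IsConj z (θ f₁))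
    (hz2 : ¬ IsConj z (θ (f₁ * f₂))) {s a y : Γ} (hss : s * s = 1) (hs1 : s ≠ 1) (hsz : ¬ IsConj z s)
    (has : a * s = s * a) (hys : y * s = s * y) (haa : a * a = 1) (hay : a * y * a⁻¹ = y⁻¹) (hy : orderOf y = 19) :
    Dead (⊤ : Subgroup X) (q (f₁ * f₂ * f₃)) := by
  obtain ⟨θ', hi, hτ, hr', hc⟩ := S.exists_chart hss hs1 hsz
  have hyodd : Odd (orderOf y) := by rw [hy]; decide
  have hyne : y * y ≠ 1 := by
    intro h
    have h1 : orderOf y ∣ 2 := orderOf_dvd_of_pow_eq_one (by rw [pow_two, h])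
    rw [hy] at h1
    exact absurd h1 (by norm_num)
  have hnoc : ∀ c : Γ, c * y * c⁻¹ = y⁻¹ → c * y ≠ y * c := by
    intro c h1 h2
    apply hyne
    have h3 : y = y⁻¹ := by rw [← h1, h2]; group
    calc y * y = y⁻¹ * y := by rw [← h3]
      _ = 1 := inv_mul_cancel y
  have hzz : ∀ c : Γ, c * c = 1 → c * y * c⁻¹ = y⁻¹ → IsConj z c := by
    intro c h1 h2
    rcases S.two c h1 (fun h => hnoc c h2 (by rw [h]; group)) with h | h
    · exact h
    · exact absurd h (not_conj_six S.six hyodd (by rw [hy]; norm_num) h1 h2)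
  have hza : IsConj z a := hzz a haa hay
  have hsi : s⁻¹ = s := inv_eq_of_mul_eq_one_left hss
  have hzsa : IsConj z (s * a) := by
    apply hzz
    · calc s * a * (s * a) = s * (a * s) * a := by group
        _ = (s * s) * (a * a) := by rw [has]; group
        _ = 1 := by rw [hss, haa, one_mul]
    · calc s * a * y * (s * a)⁻¹ = s * (a * y * a⁻¹) * s⁻¹ := by group
        _ = s * y⁻¹ * s⁻¹ := by rw [hay]
        _ = (s * y * s⁻¹)⁻¹ := by group
        _ = (y * s * s⁻¹)⁻¹ := by rw [hys]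
        _ = y⁻¹ := by group
  obtain ⟨a', ha'⟩ := hr' a has
  obtain ⟨y', hy'⟩ := hr' y hys
  have h1 : a' * a' = 1 := hi (by rw [map_mul, ha', haa, map_one])
  have h2 : q a' ≠ 1 := by
    intro h
    rcases (S.hq.ker _).1 h with h3 | h3
    · exact hnoc a hay (by rw [← ha', h3, map_one]; group)
    · exact hnoc a hay (by rw [← ha', h3, hτ]; exact hys.symm)
  have h3 : a' * y' * a'⁻¹ = y'⁻¹ := hi (by rw [map_mul, map_mul, map_inv, map_inv, ha', hy', hay])
  have hyo' : orderOf y' = 19 := by rw [← hy, ← hy', orderOf_injective θ' hi]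
  have hqy : orderOf (q y') = 19 := by
    have h4 : orderOf (q y') ∣ 19 := by rw [← hyo']; exact orderOf_map_dvd q y'
    rcases (Nat.dvd_prime (by norm_num)).1 h4 with h5 | h5
    · exfalso
      rw [orderOf_eq_one_iff] at h5
      apply hyne
      rw [← hy', ← map_mul]
      rcases (S.hq.ker _).1 h5 with h6 | h6
      · rw [h6, mul_one, map_one]
      · rw [h6, S.hq.zz, map_one]
    · exact h5
  have hcl : IsConj (f₁ * f₂ * f₃) a' := by
    have hca := hc a'
    rw [ha'] at hca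
    have hcsa := hc (τ * a')
    rw [map_mul θ', ha', hτ] at hcsa
    rcases S.classes h1 h2 with h | h | h | h
    · exact absurd (hza.trans (hca.symm.trans (θ.map_isConj h).symm)) hz1
    · exact absurd (hza.trans (hca.symm.trans (θ.map_isConj h).symm)) hz2
    · exfalso
      have h4 : IsConj (f₁ * f₂) (τ * a') := by
        have h5 := S.conj_mul_τ h
        rwa [S.ττ] at h5
      exact hz2 (hzsa.trans (hcsa.symm.trans (θ.map_isConj h4).symm))
    · exact h
  have hd : Dead (⊤ : Subgroup X) (q a') := by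
    intro V hV hmem
    have h4 : q a' * q y' * (q a')⁻¹ = (q y')⁻¹ := by
      rw [← map_inv, ← map_mul, ← map_mul, h3, map_inv]
    obtain ⟨w, hw, hw1, hwc⟩ := hV.t0 hmem (by rw [hqy]; decide) h4
    have h5 := S.P19 hqy (hV.sq hw) hw1 hwc
    exact hd1.of_isConj h5 V hV hw
  exact hd.of_isConj (q.map_isConj hcl).symm

/-- **The final argument.** -/
theorem false_of [Finite X] (hd1 : Dead (⊤ : Subgroup X) (q f₁)) (hd2 : Dead (⊤ : Subgroup X) (q (f₁ * f₂)))
    (hd3 : Dead (⊤ : Subgroup X) (q (f₁ * f₂ * f₃))) {V : Subgroup X} (hV : Cx V (⊤ : Subgroup X)) : False := by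
  obtain ⟨b, hb, hbV, hb1⟩ := exists_plus S.hq hV.elem hV.card
  rcases S.classes hb hb1 with h | h | h | h
  · exact hd1.of_isConj (q.map_isConj h) V hV hbV
  · exact hd2.of_isConj (q.map_isConj h) V hV hbV
  · have h4 := q.map_isConj h
    rw [S.q_τ] at h4
    exact hd2.of_isConj h4 V hV hbV
  · exact hd3.of_isConj (q.map_isConj h) V hV hbV

end Sit

end Cfsg.Agent.H74.SK.BCore
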