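import Cfsg.Agent.H74.SK.BCore
import Cfsg.Agent.H74.SK.BFi
import Cfsg.Agent.H849.ThreeNorm
import Cfsg.Agent.KFacts.FiTF.FrameF

/-!
# S3010 (Sidki pairs), the row of the Baby Monster: the class of `q f₁` is dead (helper74)

`x` of order 3 in the Monster with `N(⟨x⟩)/⟨x⟩ ≅ Fi24`, `a`, `b` commuting transpositions of `Fi24`, `s` an involution over
`a`, `t` the involution of `C(x)` over `a b`.
-/

set_option autoImplicit false

namespace Cfsg.Agent.H74.SK.BFiK

open Subgroup Cfsg
open Cfsg.Agent.H282.SK Cfsg.Agent.H738.SK Cfsg.Agent.R01.Lifts Cfsg.Agent.H74.SK.BAbs Cfsg.Agent.H74.SK.BCore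
open Cfsg.Agent.H849.ThreeNorm
open Cfsg.Agent.R08 Cfsg.Agent.R08.FiTwentyFour Cfsg.Agent.R08.TetFi24A
open Cfsg.Spor (Fi24)

universe u

theorem centralizer_commutator : centralizer ((_root_.commutator Fi24 : Subgroup Fi24) : Set Fi24) = ⊥ := by
  have F := Cfsg.Agent.KFacts.FiTF.frame
  have hs : IsSimpleGroup Spor.Fi24' := isFi24'.1
  rw [eq_bot_iff]
  intro c hc
  rw [mem_centralizer_iff] at hc
  rw [mem_bot]
  rcases F.cent c (fun r hr => (hc r (F.EK (F.RE hr))).symm) with h | h
  · exact h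
  · exfalso
    have hzK := F.EK (F.RE F.zR)
    have h1 : (⟨_, hzK⟩ : Spor.Fi24') ∈ center Spor.Fi24' := by
      rw [mem_center_iff]
      intro g
      apply Subtype.ext
      have := hc g g.2
      rw [h] at this
      exact this
    rcases hs.eq_bot_or_eq_top_of_normal (center Spor.Fi24') inferInstance with h2 | h2
    · rw [h2, mem_bot] at h1
      exact F.z1 (congrArg Subtype.val h1)
    · have h3 : ∀ a b : Spor.Fi24', a * b = b * a := by
        intro a b
        have h4 : b ∈ center Spor.Fi24' := by rw [h2]; trivial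
        exact mem_center_iff.1 h4 a
      have key : ∀ (E : Subgroup Fi24) (_ : ⁅E, E⁆ = E) (_ : E ≤ _root_.commutator Fi24) (z : Fi24) (_ : z ∈ E), z = 1 := by
        intro E hE hEK z hz
        have h7 : ⁅E, E⁆ ≤ (⊥ : Subgroup Fi24) := by
          rw [commutator_le]
          intro a ha b hb
          rw [mem_bot, commutatorElement_eq_one_iff_mul_comm]
          exact congrArg Subtype.val (h3 ⟨a, hEK ha⟩ ⟨b, hEK hb⟩)
        rw [hE] at h7
        exact mem_bot.1 (h7 hz)
      exact F.z1 (key _ F.perf F.EK _ (F.RE F.zR))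

/-- two commuting transpositions of `Fi24` -/
theorem exists_pair : ∃ a b : Fi24, Nonempty (At a b) := by
  have h3 := KFacts.FiTF.Tet.isTet (t := 0) (by norm_num)
  exact ⟨_, _, TetFi24A.exists_at h3.ha h3.hb h3.nab h3.ab⟩

section abs

variable {G F : Type*} [Group G] [Group F] {x t : G} {π : centralizer ({x} : Set G) →* ↥(_root_.commutator F)}

theorem center_of_centralizer (hcc : centralizer ((_root_.commutator F : Subgroup F) : Set F) = ⊥) :
    center ↥(_root_.commutator F) = ⊥ := by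
  rw [eq_bot_iff]
  intro c hc
  rw [mem_center_iff] at hc
  have h1 : (c : F) ∈ centralizer ((_root_.commutator F : Subgroup F) : Set F) := by
    rw [mem_centralizer_iff]
    intro g hg
    exact congrArg Subtype.val (hc ⟨g, hg⟩)
  rw [hcc, mem_bot] at h1
  exact mem_bot.2 (Subtype.ext h1)

theorem exists_n [Finite G] [Finite F] (D : Data x t π) (hi : (_root_.commutator F).index = 2)
    (hc : center ↥(_root_.commutator F) = ⊥)
    (hconj : ∀ α : MulAut ↥(_root_.commutator F), ∃ g : F, ∀ y : ↥(_root_.commutator F), (α y : F) = g * y * g⁻¹)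
    (g : F) : ∃ n : N x, ∀ y : ↥(_root_.commutator F), (D.auHom n y : F) = g * y * g⁻¹ := by
  have hn := Data.normal (x := x)
  let ψ : F →* MulAut ↥(_root_.commutator F) := MulAut.conjNormal
  have hψ : Function.Surjective ψ := by
    intro α
    obtain ⟨g, hg⟩ := hconj α
    refine ⟨g, ?_⟩
    ext y
    rw [hg]
    exact MulAut.conjNormal_apply g y
  have hfin : Finite (MulAut ↥(_root_.commutator F)) := Finite.of_surjective ψ hψ
  have h1 : Nat.card (MulAut ↥(_root_.commutator F)) ≤ Nat.card F := Nat.card_le_card_of_surjective ψ hψ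
  let e1 : N x ⧸ D.auHom.ker ≃* D.auHom.range := QuotientGroup.quotientKerEquivRange D.auHom
  have h2 : Nat.card D.auHom.range = Nat.card F := by
    rw [← Nat.card_congr e1.toEquiv, D.ker_auHom hc]
    exact D.card_quot hi
  have h3 : Nat.card D.auHom.range ≤ Nat.card (MulAut ↥(_root_.commutator F)) := Subgroup.card_le_card_group _
  have h4 : Nat.card (MulAut ↥(_root_.commutator F)) = Nat.card F := le_antisymm h1 (h2 ▸ h3)
  have h5 : D.auHom.range = ⊤ := Subgroup.eq_top_of_card_eq _ (h2.trans h4.symm)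
  have h6 : ψ g ∈ D.auHom.range := by rw [h5]; trivial
  obtain ⟨n, hn⟩ := h6
  refine ⟨n, fun y => ?_⟩
  rw [hn]
  exact MulAut.conjNormal_apply g y

theorem ker_of (D : Data x t π) : BAbs.Ker π := ⟨by rw [D.ord]; decide, D.surj, D.ker⟩

/-- the involution over `a` -/
theorem exists_s [Finite G] [Finite F] (D : Data x t π) (hi : (_root_.commutator F).index = 2)
    (hcc : centralizer ((_root_.commutator F : Subgroup F) : Set F) = ⊥)
    (hconj : ∀ α : MulAut ↥(_root_.commutator F), ∃ g : F, ∀ y : ↥(_root_.commutator F), (α y : F) = g * y * g⁻¹)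
    {a : F} (haa : a * a = 1) (ha : a ∉ _root_.commutator F) :
    ∃ s : G, s * s = 1 ∧ ∃ hinv : s * x * s⁻¹ = x⁻¹,
      ∀ d : centralizer ({x} : Set G), (π (cs hinv d) : F) = a * π d * a⁻¹ := by
  have hc := center_of_centralizer hcc
  obtain ⟨n, hn⟩ := exists_n D hi hc hconj a
  have hn' : ∀ d : centralizer ({x} : Set G), (π (cj D.ord n d) : F) = a * π d * a⁻¹ := by
    intro d
    rw [← hn, ← D.au_apply]
    rfl
  have hinv : (n : G) * x * (n : G)⁻¹ = x⁻¹ := by
    rcases conj_cases D.ord n with h | h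
    · exfalso
      have hm : (n : G) ∈ centralizer ({x} : Set G) := mem_cent_iff.2 h
      have h1 : ((π ⟨n, hm⟩ : F))⁻¹ * a ∈ centralizer ((_root_.commutator F : Subgroup F) : Set F) := by
        rw [mem_centralizer_iff]
        intro y hy
        obtain ⟨d, hd⟩ := D.surj ⟨y, hy⟩
        have h2 := hn' d
        have h3 : cj D.ord n d = ⟨n, hm⟩ * d * (⟨n, hm⟩ : centralizer ({x} : Set G))⁻¹ := rfl
        rw [h3, map_mul, map_mul, map_inv, hd] at h2
        have h4 : (π ⟨n, hm⟩ : F) * y * (π ⟨n, hm⟩ : F)⁻¹ = a * y * a⁻¹ := h2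
        calc y * ((π ⟨n, hm⟩ : F)⁻¹ * a) = (π ⟨n, hm⟩ : F)⁻¹ * ((π ⟨n, hm⟩ : F) * y * (π ⟨n, hm⟩ : F)⁻¹) * a := by group
          _ = (π ⟨n, hm⟩ : F)⁻¹ * (a * y * a⁻¹) * a := by rw [h4]
          _ = _ := by group
      rw [hcc, mem_bot] at h1
      apply ha
      rw [inv_mul_eq_one] at h1
      rw [← h1]
      exact (π ⟨n, hm⟩).2
    · exact h
  have hsq : (n : G) * n = 1 := by
    have h1 : D.auHom (n * n) = 1 := by
      apply MulEquiv.ext
      intro y
      apply Subtype.ext
      rw [map_mul, MulAut.mul_apply, hn, hn]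
      show a * (a * y * a⁻¹) * a⁻¹ = y
      calc a * (a * y * a⁻¹) * a⁻¹ = (a * a) * y * (a * a)⁻¹ := by group
        _ = y := by rw [haa]; group
    have h2 : (n : G) * n ∈ zpowers x := by
      have h3 : n * n ∈ D.auHom.ker := h1
      rw [D.ker_auHom hc, mem_subgroupOf] at h3
      exact h3
    refine eq_one_of_pow (n := orderOf x) (m := 1) (by rw [D.ord]; decide) (pow_of_mem h2) ?_
    obtain ⟨i, hi⟩ := mem_zpowers_iff.1 h2
    have h3 : (n : G) * (x ^ i) * (n : G)⁻¹ = x ^ (-i) := inv_pow_eq hinv i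
    have h4 : x ^ i = x ^ (-i) := by
      rw [← h3, hi]; group
    rw [pow_one, pow_two, ← hi]
    nth_rw 2 [h4]
    rw [← zpow_add, add_neg_cancel, zpow_zero]
  exact ⟨n, hsq, hinv, hn'⟩

end abs

/-- the order of a subgroup containing the kernel -/
theorem card_comap {A B : Type*} [Group A] [Group B] (f : A →* B) (hf : Function.Surjective f) (L : Subgroup B) :
    Nat.card (L.comap f) = Nat.card L * Nat.card f.ker := by
  rw [Subgroup.card_eq_card_quotient_mul_card_subgroup (f.comp (L.comap f).subtype).ker]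
  have h1 : (f.comp (L.comap f).subtype).range = L := by
    ext w
    constructor
    · rintro ⟨⟨b, hb⟩, rfl⟩
      exact hb
    · intro hw
      obtain ⟨b, rfl⟩ := hf w
      exact ⟨⟨b, hw⟩, rfl⟩
  congr 1
  · exact Nat.card_congr ((QuotientGroup.quotientKerEquivRange (f.comp (L.comap f).subtype)).trans
      (MulEquiv.subgroupCongr h1)).toEquiv
  · have h2 : ((f.comp (L.comap f).subtype).ker.map (L.comap f).subtype) = f.ker := by
      ext w
      constructor
      · rintro ⟨⟨b, hb⟩, hk, rfl⟩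
        exact hk
      · intro hw
        have hwL : w ∈ L.comap f := by rw [mem_comap, (MonoidHom.mem_ker).1 hw]; exact L.one_mem
        exact ⟨⟨w, hwL⟩, hw, rfl⟩
    rw [← h2, Subgroup.card_map_of_injective (Subgroup.subtype_injective _)]

section main

variable {B Γ : Type*} {X : Type u} [Group B] [Group X] [Group Γ] {q : B →* X} {θ : B →* Γ}
  {τ f₁ f₂ f₃ f₄ y₅ : B} {z : Γ} {t₁ : X}

theorem main [Finite X] [Finite Γ] (S : Sit q θ τ f₁ f₂ f₃ f₄ y₅ z t₁)
    (z17 : ¬ 17 ∣ Nat.card (centralizer ({z} : Set Γ))) (z310 : ¬ 3 ^ 10 ∣ Nat.card (centralizer ({z} : Set Γ)))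
    {x t' : Γ} {π : centralizer ({x} : Set Γ) →* ↥(_root_.commutator Fi24)} (D : Data x t' π)
    {a b : Fi24} (P : At a b) :
    Dead (⊤ : Subgroup X) (q f₁) ∧ ¬ IsConj z (θ f₁) := by
  have hfF : Finite Fi24 := finite_Fi24
  have K := ker_of D
  have hex := fun {g : Fi24} (hg : g ∈ L) =>
    exists_s D index_commutator centralizer_commutator Cfsg.Agent.KFacts.FiTF.exists_conj (sq hg) (odd hg)
  obtain ⟨s, hss, hinv, hs⟩ := hex P.ha
  -- `ab`
  obtain ⟨s₀, hs₀⟩ : ∃ s₀ : Spor.Fi24', (s₀ : Fi24) = a * b := ⟨⟨a * b, even P.ha P.hb⟩, rfl⟩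
  have haa := sq P.ha
  have hbb := sq P.hb
  have hab : a * b = b * a := P.ab
  have hs₀s : s₀ * s₀ = 1 := by
    apply Subtype.ext
    show (s₀ : Fi24) * s₀ = 1
    rw [hs₀]
    calc a * b * (a * b) = a * (b * a) * b := by group
      _ = (a * a) * (b * b) := by rw [← hab]; group
      _ = 1 := by rw [haa, hbb, one_mul]
  have hs₀1 : s₀ ≠ 1 := by
    intro h
    have h1 : a * b = 1 := by rw [← hs₀, h]; rfl
    apply P.ne
    calc a = a * b * b⁻¹ := by group
      _ = b⁻¹ := by rw [h1, one_mul]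
      _ = b := inv_eq_of_mul_eq_one_left hbb
  obtain ⟨tx, htt, htx⟩ := K.exists_inv hs₀s
  have htt' : (tx : Γ) * tx = 1 := congrArg Subtype.val htt
  have ht1 : (tx : Γ) ≠ 1 := by
    intro h
    apply hs₀1
    rw [← htx]
    have h1 : tx = 1 := Subtype.ext h
    rw [h1, map_one]
  -- `s` commutes with `t`
  have hcs : cs hinv tx = tx := by
    refine K.uniq ?_ htt ?_
    · rw [← cs_mul, htt]
      apply Subtype.ext
      show s * 1 * s⁻¹ = 1
      group
    · apply Subtype.ext
      rw [hs, htx, hs₀]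
      calc a * (a * b) * a⁻¹ = (a * a) * (b * a⁻¹) := by group
        _ = b * a⁻¹ := by rw [haa, one_mul]
        _ = b * a := by rw [inv_eq_of_mul_eq_one_left haa]
        _ = a * b := hab.symm
  have hst : s * (tx : Γ) = tx * s := by
    have h1 : s * (tx : Γ) * s⁻¹ = tx := congrArg Subtype.val hcs
    exact mul_inv_eq_iff_eq_mul.1 h1
  have hx1 : x * x ≠ 1 := by
    intro h
    have h1 : orderOf x ∣ 2 := orderOf_dvd_of_pow_eq_one (by rw [pow_two, h])
    rw [D.ord] at h1
    norm_num at h1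
  have hsx : s * x ≠ x * s := by
    intro h
    apply hx1
    have h1 : x = x⁻¹ := by
      rw [← hinv, h]; group
    calc x * x = x⁻¹ * x := by rw [← h1]
      _ = 1 := inv_mul_cancel x
  have htxx : (tx : Γ) * x = x * tx := mem_centralizer_singleton_iff.1 tx.2
  have hs1 : s ≠ 1 := by
    rintro rfl
    apply hsx; group
  have hstn : s ≠ tx := by
    rintro h
    apply hsx
    rw [h]; exact htxx
  -- 17 divides `|C(s)|` and `|C(st)|`
  have h17 : 17 ∣ Nat.card (centralizer ({s} : Set Γ)) := by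
    obtain ⟨y, hy, hya⟩ := BFi.exists_seventeen P
    rw [← hy]
    refine K.card_dvd hss hinv fun d hd => ?_
    apply Subtype.ext
    rw [hs, hd, ← hya]
    group
  have hts : (tx : Γ) * s * (tx * s) = 1 := by
    calc (tx : Γ) * s * (tx * s) = tx * (s * tx) * s := by group
      _ = (tx * tx) * (s * s) := by rw [hst]; group
      _ = 1 := by rw [htt', hss, one_mul]
  have hinv' : (tx : Γ) * s * x * ((tx : Γ) * s)⁻¹ = x⁻¹ := by
    calc (tx : Γ) * s * x * ((tx : Γ) * s)⁻¹ = tx * (s * x * s⁻¹) * (tx : Γ)⁻¹ := by group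
      _ = tx * x⁻¹ * (tx : Γ)⁻¹ := by rw [hinv]
      _ = (tx * x * (tx : Γ)⁻¹)⁻¹ := by group
      _ = (x * tx * (tx : Γ)⁻¹)⁻¹ := by rw [htxx]
      _ = x⁻¹ := by group
  have h17' : 17 ∣ Nat.card (centralizer ({(tx : Γ) * s} : Set Γ)) := by
    obtain ⟨Pba⟩ := exists_at P.hb P.ha P.ne.symm P.ab.symm
    obtain ⟨y, hy, hyb⟩ := BFi.exists_seventeen Pba
    rw [← hy]
    refine K.card_dvd hts hinv' fun d hd => ?_
    have h1 : cs hinv' d = tx * cs hinv d * tx⁻¹ := by
      apply Subtype.ext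
      show (tx : Γ) * s * d * ((tx : Γ) * s)⁻¹ = tx * (s * d * s⁻¹) * (tx : Γ)⁻¹
      group
    apply Subtype.ext
    rw [h1, map_mul, map_mul, map_inv, htx]
    show (s₀ : Fi24) * (π (cs hinv d) : Fi24) * (s₀ : Fi24)⁻¹ = (π d : Fi24)
    rw [hs, hs₀, hd]
    calc a * b * (a * (y : Fi24) * a⁻¹) * (a * b)⁻¹ = (a * b * a) * y * (a * b * a)⁻¹ := by group
      _ = (b * a * a) * y * (b * a * a)⁻¹ := by rw [hab]
      _ = b * (a * a) * y * (b * (a * a))⁻¹ := by group
      _ = b * y * b⁻¹ := by rw [haa, mul_one]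
      _ = y * b * b⁻¹ := by rw [hyb]
      _ = y := by group
  -- `3 ^ 10` divides `|C(t)|`
  have h310 : 3 ^ 10 ∣ Nat.card (centralizer ({(tx : Γ)} : Set Γ)) := by
    let L₀ : Subgroup ↥(_root_.commutator Fi24) := (Cab a b).comap (_root_.commutator Fi24).subtype
    have e0 : Nat.card L₀ = 2 * 64561751654400 := by
      rw [← OddHalf.D4.Spor.FiTF.card_Cab P]
      have h1 : L₀.map (_root_.commutator Fi24).subtype = Cab a b := by
        apply le_antisymm
        · rintro _ ⟨g, hg, rfl⟩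
          exact hg
        · intro g hg
          exact ⟨⟨g, hg.1⟩, hg, rfl⟩
      rw [← h1, Subgroup.card_map_of_injective (Subgroup.subtype_injective _)]
    have e1 : Nat.card π.ker = 3 := by
      have h1 : π.ker.map (Subgroup.subtype _) = zpowers x := by
        apply le_antisymm
        · rintro _ ⟨g, hg, rfl⟩
          exact (D.ker g).1 hg
        · intro g hg
          have hgc : g ∈ centralizer ({x} : Set Γ) := by
            obtain ⟨i, rfl⟩ := mem_zpowers_iff.1 hg
            exact mem_centralizer_singleton_iff.2 ((Commute.refl x).zpow_left i).eq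
          exact ⟨⟨g, hgc⟩, (D.ker ⟨g, hgc⟩).2 hg, rfl⟩
      rw [← D.ord, ← Nat.card_zpowers, ← h1, Subgroup.card_map_of_injective (Subgroup.subtype_injective _)]
    have e2 := card_comap π D.surj L₀
    rw [e0, e1] at e2
    have e3 : (L₀.comap π).map (Subgroup.subtype _) ≤ centralizer ({(tx : Γ)} : Set Γ) := by
      rintro _ ⟨d, hd, rfl⟩
      have hd' : ((π d : ↥(_root_.commutator Fi24)) : Fi24) ∈ Cab a b := hd
      have h1 : Commute (π d) (π tx) := by
        rw [htx]
        apply Subtype.ext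
        show ((π d : ↥(_root_.commutator Fi24)) : Fi24) * (s₀ : Fi24) = s₀ * (π d : ↥(_root_.commutator Fi24))
        obtain ⟨-, k1, k2⟩ := mem_Cab.1 hd'
        rw [hs₀, ← mul_assoc, k1, mul_assoc, k2, mul_assoc]
      have h2 := K.commute_of_mod htt h1
      exact mem_centralizer_singleton_iff.2 (congrArg Subtype.val h2.eq)
    have e4 := Subgroup.card_dvd_of_le e3
    rw [Subgroup.card_map_of_injective (Subgroup.subtype_injective _), e2] at e4
    exact Dvd.dvd.trans (by norm_num) e4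
  have hnz : ∀ {c : Γ} {m : ℕ}, ¬ m ∣ Nat.card (centralizer ({z} : Set Γ)) →
      m ∣ Nat.card (centralizer ({c} : Set Γ)) → ¬ IsConj z c := by
    intro c m h1 h2 h3
    exact h1 (by rw [card_cent_isConj h3]; exact h2)
  refine S.K1 K hss hs1 hinv (tx := tx) hst hstn htt' ht1 (hnz z310 h310) (hnz z17 h17) (hnz z17 h17')
    {y | (y : Fi24) * a = a * y} ?_ ?_
  · intro d hd
    apply Subtype.ext
    have hd' : ((π d : ↥(_root_.commutator Fi24)) : Fi24) * a = a * (π d : ↥(_root_.commutator Fi24)) := hd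
    rw [hs, ← hd']
    group
  · intro W hW h1 h2
    rw [htx] at h1 h2 ⊢
    exact BFi.two_group P hs₀ W hW h1 h2

end main

end Cfsg.Agent.H74.SK.BFiK
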