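import Cfsg.Agent.H74.SK.BCore

/-!
# S3010 (Sidki pairs), the row of the Baby Monster: involutions acting trivially on `C(x)/⟨x⟩` (helper74)

* `exists_aut` : the automorphism of `Y = C(x)/⟨x⟩` induced by an element of the normalizer of `⟨x⟩`;
* `exists_s_of_inner` : if it is inner and `Z(Y) = 1`, some involution inverts `x` and acts trivially on `Y`.
* `main19`: the class of `q (f₁f₂f₃)` is dead.
-/

set_option autoImplicit false

namespace Cfsg.Agent.H74.SK.BSplit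

open Subgroup Cfsg
open Cfsg.Agent.H282.SK Cfsg.Agent.H738.SK Cfsg.Agent.R01.Lifts Cfsg.Agent.H74.SK.BAbs Cfsg.Agent.H74.SK.BCore

universe u

section norm

variable {G Y : Type*} [Group G] [Group Y] {x : G}

theorem mem_conj {m : G} (hm : zpowers (m * x * m⁻¹) = zpowers x) {d : G} (hd : d ∈ centralizer ({x} : Set G)) :
    m * d * m⁻¹ ∈ centralizer ({x} : Set G) := by
  have h1 : x ∈ zpowers (m * x * m⁻¹) := by rw [hm]; exact mem_zpowers x
  obtain ⟨i, hi⟩ := mem_zpowers_iff.1 h1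
  have h2 : Commute d x := mem_centralizer_singleton_iff.1 hd
  have h3 : Commute (m * d * m⁻¹) (m * x * m⁻¹) := by
    show m * d * m⁻¹ * (m * x * m⁻¹) = m * x * m⁻¹ * (m * d * m⁻¹)
    calc m * d * m⁻¹ * (m * x * m⁻¹) = m * (d * x) * m⁻¹ := by group
      _ = m * (x * d) * m⁻¹ := by rw [h2.eq]
      _ = _ := by group
  rw [mem_centralizer_singleton_iff]
  have h4 := h3.zpow_right i
  rw [hi] at h4
  exact h4.eq

theorem zp_inv {m : G} (hm : zpowers (m * x * m⁻¹) = zpowers x) : zpowers (m⁻¹ * x * m⁻¹⁻¹) = zpowers x := by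
  have h1 : (zpowers (m * x * m⁻¹)).map (MulAut.conj m⁻¹).toMonoidHom = (zpowers x).map (MulAut.conj m⁻¹).toMonoidHom := by
    rw [hm]
  rw [MonoidHom.map_zpowers, MonoidHom.map_zpowers] at h1
  have h2 : (MulAut.conj m⁻¹).toMonoidHom (m * x * m⁻¹) = x := by
    show m⁻¹ * (m * x * m⁻¹) * m⁻¹⁻¹ = x
    group
  rw [h2] at h1
  exact h1.symm

/-- conjugation on `C(x)` -/
def cj {m : G} (hm : zpowers (m * x * m⁻¹) = zpowers x) :
    centralizer ({x} : Set G) ≃* centralizer ({x} : Set G) where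
  toFun d := ⟨m * d * m⁻¹, mem_conj hm d.2⟩
  invFun d := ⟨m⁻¹ * d * m⁻¹⁻¹, mem_conj (zp_inv hm) d.2⟩
  left_inv d := Subtype.ext (by
    show m⁻¹ * (m * d * m⁻¹) * m⁻¹⁻¹ = d
    group)
  right_inv d := Subtype.ext (by
    show m * (m⁻¹ * d * m⁻¹⁻¹) * m⁻¹ = d
    group)
  map_mul' a b := Subtype.ext (by
    show m * ((a : G) * b) * m⁻¹ = m * a * m⁻¹ * (m * b * m⁻¹)
    group)

theorem mem_zp_conj {m : G} (hm : zpowers (m * x * m⁻¹) = zpowers x) {k : G} (hk : k ∈ zpowers x) :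
    m * k * m⁻¹ ∈ zpowers x := by
  rw [← hm]
  obtain ⟨i, rfl⟩ := mem_zpowers_iff.1 hk
  rw [← conj_zpow]
  exact zpow_mem (mem_zpowers _) i

variable {φ : centralizer ({x} : Set G) →* Y} (K : Ker φ)
include K

theorem ker_map {m : G} (hm : zpowers (m * x * m⁻¹) = zpowers x) : φ.ker.map (cj hm).toMonoidHom = φ.ker := by
  apply le_antisymm
  · rintro _ ⟨g, hg, rfl⟩
    have h1 : (g : G) ∈ zpowers x := (K.ker g).1 hg
    exact (K.ker _).2 (mem_zp_conj hm h1)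
  · intro g hg
    have h1 : (g : G) ∈ zpowers x := (K.ker g).1 hg
    refine ⟨(cj hm).symm g, (K.ker _).2 (mem_zp_conj (zp_inv hm) h1), ?_⟩
    exact (cj hm).apply_symm_apply g

/-- **The automorphism induced by an element of the normalizer.** -/
theorem exists_aut {m : G} (hm : zpowers (m * x * m⁻¹) = zpowers x) :
    ∃ α : MulAut Y, ∀ d : centralizer ({x} : Set G), φ ⟨m * d * m⁻¹, mem_conj hm d.2⟩ = α (φ d) := by
  refine ⟨((QuotientGroup.quotientKerEquivOfSurjective φ K.surj).symm.trans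
    (QuotientGroup.congr φ.ker φ.ker (cj hm) (ker_map K hm))).trans
    (QuotientGroup.quotientKerEquivOfSurjective φ K.surj), fun d => ?_⟩
  have h1 : (QuotientGroup.quotientKerEquivOfSurjective φ K.surj).symm (φ d) = QuotientGroup.mk d := by
    rw [MulEquiv.symm_apply_eq]
    rfl
  show _ = (QuotientGroup.quotientKerEquivOfSurjective φ K.surj) (QuotientGroup.congr φ.ker φ.ker (cj hm)
    (ker_map K hm) ((QuotientGroup.quotientKerEquivOfSurjective φ K.surj).symm (φ d)))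
  rw [h1]
  rfl

/-- **An involution acting trivially.** -/
theorem exists_s_of_inner (hcen : center Y = ⊥) {m : G} (hm : m * x * m⁻¹ = x⁻¹) {c : Y}
    (hc : ∀ (d : centralizer ({x} : Set G)) (h : m * d * m⁻¹ ∈ centralizer ({x} : Set G)),
      φ ⟨m * d * m⁻¹, h⟩ = c * φ d * c⁻¹) :
    ∃ s : G, s * s = 1 ∧ ∃ hinv : s * x * s⁻¹ = x⁻¹, ∀ d : centralizer ({x} : Set G), φ (cs hinv d) = φ d := by
  obtain ⟨C, rfl⟩ := K.surj c
  have hCx : Commute (C : G) x := mem_centralizer_singleton_iff.1 C.2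
  have hinv : (C : G)⁻¹ * m * x * ((C : G)⁻¹ * m)⁻¹ = x⁻¹ := by
    calc (C : G)⁻¹ * m * x * ((C : G)⁻¹ * m)⁻¹ = (C : G)⁻¹ * (m * x * m⁻¹) * C := by group
      _ = (C : G)⁻¹ * (x⁻¹ * C) := by rw [hm]; group
      _ = (C : G)⁻¹ * (C * x⁻¹) := by rw [hCx.inv_right.eq]
      _ = x⁻¹ := by group
  have hcs : ∀ d : centralizer ({x} : Set G), φ (cs hinv d) = φ d := by
    intro d
    have h1 : m * (d : G) * m⁻¹ ∈ centralizer ({x} : Set G) :=
      mem_conj (by rw [hm, zpowers_inv]) d.2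
    have h2 : cs hinv d = C⁻¹ * ⟨m * d * m⁻¹, h1⟩ * C := by
      apply Subtype.ext
      show (C : G)⁻¹ * m * d * ((C : G)⁻¹ * m)⁻¹ = (C : G)⁻¹ * (m * d * m⁻¹) * C
      group
    rw [h2, map_mul, map_mul, map_inv, hc]
    group
  set s := (C : G)⁻¹ * m with hs
  have hss : Commute (s * s) x := by
    show s * s * x = x * (s * s)
    calc s * s * x = s * (s * x * s⁻¹) * s⁻¹ * (s * s) := by group
      _ = s * x⁻¹ * s⁻¹ * (s * s) := by rw [hinv]
      _ = (s * x * s⁻¹)⁻¹ * (s * s) := by group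
      _ = x * (s * s) := by rw [hinv, inv_inv]
  have hmem : s * s ∈ centralizer ({x} : Set G) := mem_centralizer_singleton_iff.2 hss.eq
  have h1 : φ ⟨s * s, hmem⟩ ∈ center Y := by
    rw [mem_center_iff]
    intro y
    obtain ⟨d, rfl⟩ := K.surj y
    have h2 : (⟨s * s, hmem⟩ : centralizer ({x} : Set G)) * d = cs hinv (cs hinv d) * ⟨s * s, hmem⟩ := by
      apply Subtype.ext
      show s * s * (d : G) = s * (s * d * s⁻¹) * s⁻¹ * (s * s)
      group
    rw [← map_mul φ ⟨s * s, hmem⟩ d, h2, map_mul, hcs, hcs]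
  rw [hcen, mem_bot, K.ker] at h1
  have h1' : s * s ∈ zpowers x := h1
  refine ⟨s, ?_, hinv, hcs⟩
  refine K.eq_one h1' (m := 1) ?_
  obtain ⟨i, hi⟩ := mem_zpowers_iff.1 h1'
  have h3 : s * (x ^ i) * s⁻¹ = x ^ (-i) := inv_pow_eq hinv i
  have h4 : x ^ i = x ^ (-i) := by
    rw [← h3, hi]; group
  rw [pow_one, pow_two, ← hi]
  nth_rw 2 [h4]
  rw [← zpow_add, add_neg_cancel, zpow_zero]

end norm

section main

variable {B Γ Y : Type*} {X : Type u} [Group B] [Group X] [Group Γ] [Group Y] {q : B →* X} {θ : B →* Γ}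
  {τ f₁ f₂ f₃ f₄ y₅ : B} {z : Γ} {t₁ : X}

theorem not_of_dvd {c : Γ} {m : ℕ} (h1 : ¬ m ∣ Nat.card (centralizer ({z} : Set Γ)))
    (h2 : m ∣ Nat.card (centralizer ({c} : Set Γ))) : ¬ IsConj z c :=
  fun h3 => h1 (by rw [card_cent_isConj h3]; exact h2)

theorem s_facts {x s : Γ} {φ : centralizer ({x} : Set Γ) →* Y} (K : Ker φ) (hx1 : x ≠ 1) (hinv : s * x * s⁻¹ = x⁻¹) :
    s * x ≠ x * s := by
  intro h
  apply hx1
  have h1 : x = x⁻¹ := by
    rw [← hinv, h]; group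
  refine K.eq_one (mem_zpowers x) (m := 1) ?_
  rw [pow_one, pow_two]
  calc x * x = x⁻¹ * x := by rw [← h1]
    _ = 1 := inv_mul_cancel x

/-- **The class of `q (f₁ f₂)`.** -/
theorem main5 [Finite X] [Finite Γ] (S : Sit q θ τ f₁ f₂ f₃ f₄ y₅ z t₁) {x s : Γ}
    {φ : centralizer ({x} : Set Γ) →* Y} (K : Ker φ) (hx1 : x ≠ 1) (hss : s * s = 1) (hinv : s * x * s⁻¹ = x⁻¹)
    (hcs : ∀ d : centralizer ({x} : Set Γ), φ (cs hinv d) = φ d) {y : Y} (hy : orderOf y = 19)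
    {t₀ : Y} (ht₀ : t₀ * t₀ = 1) (ht₀1 : t₀ ≠ 1)
    (htz : ∀ tx : centralizer ({x} : Set Γ), tx * tx = 1 → φ tx = t₀ → ¬ IsConj z (tx : Γ))
    (H : ∀ W : Subgroup Y, IsPGroup 2 W → (∀ w ∈ W, w * t₀ = t₀ * w) →
      (∀ y : Y, y * t₀ = t₀ * y → ∀ w ∈ W, y * w * y⁻¹ ∈ W) → ∀ w ∈ W, w = 1 ∨ w = t₀)
    (P : Subgroup Y) (hP : Nat.card P = 5 ^ 3) (hPc : ∀ y ∈ P, y * t₀ = t₀ * y) :
    Dead (⊤ : Subgroup X) (q (f₁ * f₂)) ∧ ¬ IsConj z (θ (f₁ * f₂)) := by
  obtain ⟨tx, htt, htx⟩ := K.exists_inv ht₀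
  have htt' : (tx : Γ) * tx = 1 := congrArg Subtype.val htt
  have ht1 : (tx : Γ) ≠ 1 := by
    intro h
    apply ht₀1
    rw [← htx]
    have h1 : tx = 1 := Subtype.ext h
    rw [h1, map_one]
  have hcst : cs hinv tx = tx := by
    refine K.uniq ?_ htt (hcs tx)
    rw [← cs_mul, htt]
    apply Subtype.ext
    show s * 1 * s⁻¹ = 1
    group
  have hst : s * (tx : Γ) = tx * s := by
    have h1 : s * (tx : Γ) * s⁻¹ = tx := congrArg Subtype.val hcst
    exact mul_inv_eq_iff_eq_mul.1 h1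
  have hsx := s_facts K hx1 hinv
  have htxx : (tx : Γ) * x = x * tx := mem_centralizer_singleton_iff.1 tx.2
  have hs1 : s ≠ 1 := by
    rintro rfl
    apply hsx; group
  have hstn : s ≠ tx := by
    rintro h
    apply hsx
    rw [h]; exact htxx
  have h19 : 19 ∣ Nat.card (centralizer ({s} : Set Γ)) := by
    rw [← hy]
    exact K.card_dvd hss hinv fun d _ => hcs d
  subst htx
  exact S.K5 K hss hs1 hinv hst hstn htt' ht1 (htz tx htt rfl) (not_of_dvd S.z19 h19) hcs H P hP hPc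

/-- **The class of `q (f₁ f₂ f₃)`.** -/
theorem main19 [Finite X] [Finite Γ] (S : Sit q θ τ f₁ f₂ f₃ f₄ y₅ z t₁) (hd1 : Dead (⊤ : Subgroup X) (q f₁))
    (hz1 : ¬ IsConj z (θ f₁)) (hz2 : ¬ IsConj z (θ (f₁ * f₂))) {x s : Γ}
    {φ : centralizer ({x} : Set Γ) →* Y} (K : Ker φ) (hx : orderOf x = 3) (hss : s * s = 1) (hinv : s * x * s⁻¹ = x⁻¹)
    (hcs : ∀ d : centralizer ({x} : Set Γ), φ (cs hinv d) = φ d) {A W : Y} (hA : A * A = 1) (hAW : A * W * A⁻¹ = W⁻¹)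
    (hW : orderOf W = 19) : Dead (⊤ : Subgroup X) (q (f₁ * f₂ * f₃)) := by
  have hx1 : x ≠ 1 := by
    rintro rfl
    rw [orderOf_one] at hx
    norm_num at hx
  have hx3 : x ^ 3 = 1 := by rw [← hx, pow_orderOf_eq_one]
  obtain ⟨a, haa, rfl⟩ := K.exists_inv hA
  obtain ⟨d₀, rfl⟩ := K.surj W
  obtain ⟨d, hd, hds⟩ := K.adj hss hinv (hcs d₀)
  rw [← hd] at hAW hW
  have hcsa : cs hinv a = a := by
    refine K.uniq ?_ haa (hcs a)
    rw [← cs_mul, haa]
    apply Subtype.ext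
    show s * 1 * s⁻¹ = 1
    group
  have has : (a : Γ) * s = s * a := by
    have h1 : s * (a : Γ) * s⁻¹ = a := congrArg Subtype.val hcsa
    exact (mul_inv_eq_iff_eq_mul.1 h1).symm
  have hsx := s_facts K hx1 hinv
  have hs1 : s ≠ 1 := by
    rintro rfl
    apply hsx; group
  -- `a` inverts `d ^ 3`
  have hinv3 : (a : Γ) * (d : Γ) ^ 3 * (a : Γ)⁻¹ = ((d : Γ) ^ 3)⁻¹ := by
    have h1 : φ (d * (a * d * a⁻¹)) = 1 := by
      rw [map_mul, map_mul, map_mul, map_inv, hAW, mul_inv_cancel]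
    obtain ⟨i, hi⟩ := mem_zpowers_iff.1 ((K.ker _).1 h1)
    have hi' : x ^ i = (d : Γ) * (a * d * (a : Γ)⁻¹) := hi
    have h2 : (a : Γ) * d * (a : Γ)⁻¹ = (d : Γ)⁻¹ * x ^ i := by rw [hi']; group
    have h3 : Commute (d : Γ)⁻¹ (x ^ i) := ((Ker.comm_x d).inv_left).zpow_right i
    rw [← conj_pow, h2, h3.mul_pow, ← zpow_natCast (x ^ i), ← zpow_mul, mul_comm i, zpow_mul]
    have h4 : x ^ ((3 : ℕ) : ℤ) = 1 := by rw [zpow_natCast, hx3]
    rw [h4, one_zpow, mul_one, inv_pow]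
  have hy : orderOf ((d : Γ) ^ 3) = 19 := by
    have h1 : φ (d ^ 19) = 1 := by rw [map_pow, ← hW, pow_orderOf_eq_one]
    have h2 := pow_of_mem ((K.ker _).1 h1)
    rw [hx] at h2
    have h3 : ((d : Γ) ^ 3) ^ 19 = 1 := by
      have h4 : ((d : Γ) ^ 19) ^ 3 = 1 := h2
      rw [← pow_mul] at h4 ⊢
      exact h4
    have : Fact (Nat.Prime 19) := ⟨by norm_num⟩
    refine orderOf_eq_prime h3 ?_
    intro h4
    have h5 : d ^ 3 = 1 := Subtype.ext h4
    have h6 : (φ d) ^ 3 = 1 := by rw [← map_pow, h5, map_one]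
    have h7 := orderOf_dvd_of_pow_eq_one h6
    rw [hW] at h7
    norm_num at h7
  have hys : (d : Γ) ^ 3 * s = s * (d : Γ) ^ 3 := (hds.pow_left 3).eq
  have h19 : 19 ∣ Nat.card (centralizer ({s} : Set Γ)) := by
    rw [← hy]
    exact Subgroup.orderOf_dvd_natCard _ (mem_centralizer_singleton_iff.2 hys)
  exact S.K19 hd1 hz1 hz2 hss hs1 (not_of_dvd S.z19 h19) has hys (congrArg Subtype.val haa) hinv3 hy

end main

end Cfsg.Agent.H74.SK.BSplit
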