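import Cfsg.Agent.H74.SK.BSplit
import Cfsg.Agent.KFacts.Th.Main
import Cfsg.Agent.H964.NoHall.RowTh

/-!
# S3010 (Sidki pairs), the row of the Baby Monster: the class of `q (f₁ f₂ f₃)` is dead (helper74)

`x` of order 3 in the Monster with `C(x)/⟨x⟩ ≅ Th`.
-/

set_option autoImplicit false

namespace Cfsg.Agent.H74.SK.BThK

open Subgroup Cfsg
open Cfsg.Agent.H282.SK Cfsg.Agent.H738.SK Cfsg.Agent.R01.Lifts Cfsg.Agent.H74.SK.BAbs Cfsg.Agent.H74.SK.BCore
open Cfsg.Agent.H74.SK.BSplit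
open Cfsg.Agent.H964.NoHall

universe u

theorem center_bot : center Spor.Th = ⊥ := by
  have hs : IsSimpleGroup Spor.Th := Cfsg.Agent.Th.Final.isSimple
  have hf := Cfsg.Agent.KFacts.Th.Main.finite
  rcases hs.eq_bot_or_eq_top_of_normal (center Spor.Th) inferInstance with h | h
  · exact h
  · exfalso
    have h1 : thE (.g .a) * thE thW = thE thW * thE (.g .a) :=
      (mem_center_iff.1 (show thE thW ∈ center Spor.Th by rw [h]; trivial) _)
    have h2 := thA_conj
    rw [h1] at h2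
    have h3 : thE thW ^ 17 = 1 := by
      have h4 : thE thW * thE (.g .a) = thE thW * (thE thW ^ 17 * thE (.g .a)) := by
        rw [h2, ← mul_assoc, ← pow_succ']
      have h5 := mul_left_cancel h4
      exact (mul_eq_right.1 h5.symm)
    have h4 := orderOf_dvd_of_pow_eq_one h3
    rw [thW_order] at h4
    norm_num at h4

section main

variable {B Γ : Type*} {X : Type u} [Group B] [Group X] [Group Γ] {q : B →* X} {θ : B →* Γ}
  {τ f₁ f₂ f₃ f₄ y₅ : B} {z : Γ} {t₁ : X}

theorem main [Finite X] [Finite Γ] (S : Sit q θ τ f₁ f₂ f₃ f₄ y₅ z t₁) (hd1 : Dead (⊤ : Subgroup X) (q f₁))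
    (hz1 : ¬ IsConj z (θ f₁)) (hz2 : ¬ IsConj z (θ (f₁ * f₂)))
    {x m : Γ} {φ : centralizer ({x} : Set Γ) →* Spor.Th} (K : Ker φ) (hx : orderOf x = 3) (hm : m * x * m⁻¹ = x⁻¹) :
    Dead (⊤ : Subgroup X) (q (f₁ * f₂ * f₃)) := by
  obtain ⟨α, hα⟩ := exists_aut K (m := m) (by rw [hm, zpowers_inv])
  obtain ⟨c, rfl⟩ := Cfsg.Agent.KFacts.Th.Main.inner α
  obtain ⟨s, hss, hinv, hcs⟩ := exists_s_of_inner K center_bot hm (c := c) (by
    intro d h
    rw [hα, MulAut.conj_apply])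
  have hA : thE (.g .a) * thE (.g .a) = 1 := by
    have h := thE_eq thA_2
    rw [thE_pow, thE_one, pow_two] at h
    exact h
  refine main19 S hd1 hz1 hz2 K hx hss hinv hcs hA (W := thE thW) ?_ thW_order
  have h19 : thE thW ^ 19 = 1 := by
    have h := pow_orderOf_eq_one (thE thW)
    rwa [thW_order] at h
  rw [thA_conj, mul_inv_cancel_right, eq_inv_iff_mul_eq_one, ← pow_succ]
  exact h19

end main

end Cfsg.Agent.H74.SK.BThK
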